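import Cfsg.Agent.CharTable.InvariantMatrix
import Mathlib.GroupTheory.Sylow
import Mathlib.GroupTheory.GroupAction.Quotient

/-!
# Orbits without a point fixed by a Sylow subgroup

An invariant invertible matrix over a field of characteristic `p` induces an invertible matrix
between the sets of orbits which have no point fixed by a Sylow `p`-subgroup.  If it commutes with
involutions and none of those orbits is stable on one side, none is stable on the other.
-/

set_option autoImplicit false

namespace CfsgLib.RealDegree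

open MulAction

variable (p : ℕ) (G : Type*) [Group G] {X : Type*} [MulAction G X]

/-- Some Sylow `p`-subgroup fixes `x`. -/
def SylowFixed (x : X) : Prop := ∃ P : Sylow p G, (P : Subgroup G) ≤ stabilizer G x

variable {p G}

theorem sylowFixed_smul [Fact p.Prime] [Finite G] {x : X} (g : G) (h : SylowFixed p G x) :
    SylowFixed p G (g • x) := by
  obtain ⟨P, hP⟩ := h
  refine ⟨g • P, ?_⟩
  rw [Sylow.coe_subgroup_smul, stabilizer_smul_eq_stabilizer_map_conj]
  exact Subgroup.map_mono hP

variable (p G X) in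
/-- The orbits with no point fixed by a Sylow `p`-subgroup. -/
abbrev BadOrbit : Type _ :=
  {q : Quotient (orbitRel G X) // ∀ x, Quotient.mk (orbitRel G X) x = q → ¬ SylowFixed p G x}

variable {k : Type*} [Field k] [CharP k p] [Fact p.Prime] [Finite G]
  {Y : Type*} [MulAction G Y] [Fintype Y] [DecidableEq (Quotient (orbitRel G Y))]

/-- The sum of a row over an orbit. -/
def rowSum (A : X → Y → k) (x : X) (q : Quotient (orbitRel G Y)) : k :=
  ∑ y, if Quotient.mk (orbitRel G Y) y = q then A x y else 0

omit [CharP k p] [Fact p.Prime] [Finite G] in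
theorem mk_smul_eq (g : G) (y : Y) :
    Quotient.mk (orbitRel G Y) (g • y) = Quotient.mk (orbitRel G Y) y :=
  Quotient.sound (mem_orbit y g)

omit [CharP k p] [Fact p.Prime] [Finite G] in
theorem rowSum_smul (A : X → Y → k) (hA : ∀ (g : G) x y, A (g • x) (g • y) = A x y) (g : G)
    (x : X) (q : Quotient (orbitRel G Y)) : rowSum A (g • x) q = rowSum A x q := by
  rw [rowSum, ← Equiv.sum_comp (MulAction.toPerm g : Equiv.Perm Y)]
  exact Finset.sum_congr rfl fun y _ => by simp [MulAction.toPerm_apply, mk_smul_eq, hA]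

theorem rowSum_eq_zero (A : X → Y → k) (hA : ∀ (g : G) x y, A (g • x) (g • y) = A x y) {x : X}
    (hx : SylowFixed p G x) (q : BadOrbit p G Y) : rowSum A x q.1 = 0 := by
  classical
  obtain ⟨P, hP⟩ := hx
  haveI := Fintype.ofFinite (fixedPoints P Y)
  rw [rowSum, CfsgLib.CharTable.sum_eq_sum_fixedPoints P.isPGroup' _ fun u y => by
    show (if Quotient.mk (orbitRel G Y) ((u : G) • y) = q.1 then A x ((u : G) • y) else 0) = _
    rw [mk_smul_eq]
    conv_lhs => rw [← mem_stabilizer_iff.1 (hP u.2), hA]]
  refine Finset.sum_eq_zero fun y _ => if_neg fun h => q.2 _ h ⟨P, fun u hu => ?_⟩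
  exact mem_stabilizer_iff.2 (y.2 ⟨u, hu⟩)

variable [Fintype X] [DecidableEq (Quotient (orbitRel G X))] [DecidableEq X]

theorem orbitMatrix_mul (A : X → Y → k) (B : Y → X → k)
    (hA : ∀ (g : G) x y, A (g • x) (g • y) = A x y)
    (hB : ∀ (g : G) y x, B (g • y) (g • x) = B y x)
    (h₁ : ∀ x x', ∑ y, A x y * B y x' = if x = x' then 1 else 0)
    [Fintype (BadOrbit p G Y)] (q q' : BadOrbit p G X) :
    ∑ r : BadOrbit p G Y, rowSum A q.1.out r.1 * rowSum B r.1.out q'.1 =
      if q = q' then 1 else 0 := by
  classical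
  have hout : ∀ (y : Y), rowSum B (Quotient.mk (orbitRel G Y) y).out q'.1 = rowSum B y q'.1 := by
    intro y
    obtain ⟨g, hg⟩ := Quotient.mk_out (s := orbitRel G Y) y
    rw [← hg]
    exact rowSum_smul B hB g y q'.1
  have e1 : ∀ y : Y, (∑ r : BadOrbit p G Y,
      (if Quotient.mk (orbitRel G Y) y = r.1 then A q.1.out y else 0) * rowSum B r.1.out q'.1) =
      A q.1.out y * rowSum B y q'.1 := by
    intro y
    by_cases hy : ∀ z, Quotient.mk (orbitRel G Y) z = Quotient.mk (orbitRel G Y) y →
        ¬ SylowFixed p G z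
    · rw [Finset.sum_eq_single (⟨_, hy⟩ : BadOrbit p G Y)]
      · rw [if_pos rfl, hout]
      · intro r _ hr
        rw [if_neg fun h => hr (Subtype.ext h.symm), zero_mul]
      · exact fun h => absurd (Finset.mem_univ _) h
    · push Not at hy
      obtain ⟨z, hz, hz'⟩ := hy
      have h0 : rowSum B y q'.1 = 0 := by
        rw [← hout, ← hz, hout]
        exact rowSum_eq_zero B hB hz' q'
      rw [h0, mul_zero]
      exact Finset.sum_eq_zero fun r _ => by
        rw [if_neg fun h => r.2 z (hz.trans h) hz', zero_mul]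
  calc ∑ r : BadOrbit p G Y, rowSum A q.1.out r.1 * rowSum B r.1.out q'.1
      = ∑ y, A q.1.out y * rowSum B y q'.1 := by
        rw [← Finset.sum_congr rfl fun y _ => e1 y, Finset.sum_comm]
        refine Finset.sum_congr rfl fun r _ => ?_
        rw [← Finset.sum_mul]
        rfl
    _ = ∑ x, if Quotient.mk (orbitRel G X) x = q'.1 then (if q.1.out = x then 1 else 0) else 0 := by
        simp only [rowSum, Finset.mul_sum, mul_ite, mul_zero]
        rw [Finset.sum_comm]
        refine Finset.sum_congr rfl fun x _ => ?_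
        split_ifs with h <;> simp [h₁, *]
    _ = if q = q' then 1 else 0 := by
        rw [Finset.sum_eq_single q.1.out (fun x _ hx => by simp [Ne.symm hx])
          (fun h => absurd (Finset.mem_univ _) h)]
        simp [Quotient.out_eq, Subtype.ext_iff]

/-- An involution commuting with the action acts on the orbits. -/
def orbitInvol {W : Type*} [MulAction G W] (σ : W → W)
    (hσG : ∀ (g : G) w, σ (g • w) = g • σ w) :
    Quotient (orbitRel G W) → Quotient (orbitRel G W) :=
  Quotient.map σ fun a b h => by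
    obtain ⟨g, hg⟩ := h
    exact ⟨g, by show g • σ b = σ a; rw [← hσG]; exact congrArg σ hg⟩

omit [CharP k p] [Fact p.Prime] [Finite G] [Fintype X] [DecidableEq (Quotient (orbitRel G X))] in
theorem rowSum_invol (A : X → Y → k) {σ : X → X} {τ : Y → Y}
    (hτ : Function.Involutive τ) (hτG : ∀ (g : G) y, τ (g • y) = g • τ y)
    (hAσ : ∀ x y, A (σ x) (τ y) = A x y) (x : X) (q : Quotient (orbitRel G Y)) :
    rowSum A (σ x) (orbitInvol τ hτG q) = rowSum A x q := by
  rw [rowSum, ← Equiv.sum_comp (Function.Involutive.toPerm τ hτ)]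
  refine Finset.sum_congr rfl fun y _ => ?_
  simp only [Function.Involutive.coe_toPerm, hAσ]
  have hinv : Function.Injective (orbitInvol (G := G) τ hτG) := by
    refine Function.Involutive.injective fun q => ?_
    induction q using Quotient.inductionOn with
    | h a => exact congrArg (Quotient.mk _) (hτ a)
  exact if_congr (Iff.intro (fun h => hinv h) fun h => by rw [← h]; rfl) rfl rfl

omit [Fact p.Prime] [Finite G] [Fintype X] [DecidableEq X] in
theorem sylowFixed_invol {σ : X → X} (hσG : ∀ (g : G) x, σ (g • x) = g • σ x) {x : X}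
    (h : SylowFixed p G x) : SylowFixed p G (σ x) := by
  obtain ⟨P, hP⟩ := h
  exact ⟨P, fun u hu => mem_stabilizer_iff.2 (by rw [← hσG, mem_stabilizer_iff.1 (hP hu)])⟩

/-- An involution commuting with the action acts on the bad orbits. -/
def badInvol {W : Type*} [MulAction G W] (σ : W → W) (hσ : Function.Involutive σ)
    (hσG : ∀ (g : G) w, σ (g • w) = g • σ w) : BadOrbit p G W → BadOrbit p G W :=
  fun q => ⟨orbitInvol σ hσG q.1, fun w hw h => by
    refine q.2 (σ w) ?_ ?_
    · have h2 := congrArg (orbitInvol σ hσG) hw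
      refine h2.trans ?_
      induction q.1 using Quotient.inductionOn with
      | h a => exact congrArg (Quotient.mk _) (hσ a)
    · obtain ⟨P, hP⟩ := h
      exact ⟨P, fun u hu => mem_stabilizer_iff.2
        (by rw [← hσG, mem_stabilizer_iff.1 (hP hu)])⟩⟩

variable [DecidableEq Y]

/-- **No stable bad orbit on one side gives none on the other.** -/
theorem sylowFixed_of_invertible (A : X → Y → k) (B : Y → X → k)
    (hA : ∀ (g : G) x y, A (g • x) (g • y) = A x y)
    (hB : ∀ (g : G) y x, B (g • y) (g • x) = B y x)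
    (h₁ : ∀ x x', ∑ y, A x y * B y x' = if x = x' then 1 else 0)
    (h₂ : ∀ y y', ∑ x, B y x * A x y' = if y = y' then 1 else 0)
    {σ : X → X} {τ : Y → Y} (hσ : Function.Involutive σ) (hτ : Function.Involutive τ)
    (hσG : ∀ (g : G) x, σ (g • x) = g • σ x) (hτG : ∀ (g : G) y, τ (g • y) = g • τ y)
    (hAσ : ∀ x y, A (σ x) (τ y) = A x y) (hBσ : ∀ y x, B (τ y) (σ x) = B y x)
    (hX : ∀ x, σ x ∈ orbit G x → SylowFixed p G x) :
    ∀ y, τ y ∈ orbit G y → SylowFixed p G y := by
  classical
  haveI := Fintype.ofFinite (BadOrbit p G X)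
  haveI := Fintype.ofFinite (BadOrbit p G Y)
  let sX : BadOrbit p G X → BadOrbit p G X := badInvol σ hσ hσG
  let sY : BadOrbit p G Y → BadOrbit p G Y := badInvol τ hτ hτG
  have hsX : Function.Involutive sX := by
    rintro ⟨q, hq⟩
    apply Subtype.ext
    induction q using Quotient.inductionOn with
    | h a => exact congrArg (Quotient.mk _) (hσ a)
  have hsY : Function.Involutive sY := by
    rintro ⟨q, hq⟩
    apply Subtype.ext
    induction q using Quotient.inductionOn with
    | h a => exact congrArg (Quotient.mk _) (hτ a)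
  have houtX : ∀ q : BadOrbit p G X, ∃ g : G, g • σ q.1.out = (sX q).1.out := fun q => by
    have h : Quotient.mk (orbitRel G X) (sX q).1.out = Quotient.mk (orbitRel G X) (σ q.1.out) := by
      rw [Quotient.out_eq]
      show orbitInvol σ hσG q.1 = _
      conv_lhs => rw [← Quotient.out_eq q.1]
      rfl
    exact Quotient.exact h
  have houtY : ∀ q : BadOrbit p G Y, ∃ g : G, g • τ q.1.out = (sY q).1.out := fun q => by
    have h : Quotient.mk (orbitRel G Y) (sY q).1.out = Quotient.mk (orbitRel G Y) (τ q.1.out) := by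
      rw [Quotient.out_eq]
      show orbitInvol τ hτG q.1 = _
      conv_lhs => rw [← Quotient.out_eq q.1]
      rfl
    exact Quotient.exact h
  have h := CfsgLib.CharTable.card_fixed_involutive_eq
    (fun (q : BadOrbit p G X) (r : BadOrbit p G Y) => rowSum A q.1.out r.1)
    (fun (r : BadOrbit p G Y) (q : BadOrbit p G X) => rowSum B r.1.out q.1)
    (orbitMatrix_mul A B hA hB h₁) (orbitMatrix_mul B A hB hA h₂) hsX hsY
    (fun q r => by
      obtain ⟨g, hg⟩ := houtX q
      rw [← hg, rowSum_smul A hA]
      exact rowSum_invol A hτ hτG hAσ _ _)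
    (fun r q => by
      obtain ⟨g, hg⟩ := houtY r
      rw [← hg, rowSum_smul B hB]
      exact rowSum_invol B hσ hσG hBσ _ _)
  intro y hy
  by_contra hbad
  have hq : ∀ z, Quotient.mk (orbitRel G Y) z = Quotient.mk (orbitRel G Y) y →
      ¬ SylowFixed p G z := fun z hz hz' => by
    obtain ⟨g, hg⟩ := Quotient.exact hz.symm
    exact hbad (hg ▸ sylowFixed_smul g hz')
  have hfixY : 0 < Nat.card {r // sY r = r} := by
    haveI : Nonempty {r // sY r = r} :=
      ⟨⟨⟨_, hq⟩, Subtype.ext (Quotient.sound hy)⟩⟩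
    exact Nat.card_pos
  rw [← h.2] at hfixY
  obtain ⟨⟨q, hqfix⟩⟩ := (Nat.card_pos_iff.1 hfixY).1
  refine q.2 _ (Quotient.out_eq q.1) (hX _ ?_)
  obtain ⟨g, hg⟩ := houtX q
  rw [hqfix] at hg
  refine ⟨g⁻¹, ?_⟩
  show g⁻¹ • q.1.out = σ q.1.out
  nth_rw 1 [← hg]
  rw [inv_smul_smul]

end CfsgLib.RealDegree
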