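import Cfsg.Agent.RealDegree.Induced
import Cfsg.Agent.MinNormal.Basic
import Cfsg.Agent.Coprime.Basic
import Cfsg.Agent.Coprime.Minimal
import Cfsg.Agent.Chars.Induced.Gallagher
import Mathlib.GroupTheory.FiniteAbelian.Duality
import Mathlib.Analysis.Complex.Polynomial.Basic
import Mathlib.RingTheory.RootsOfUnity.AlgebraicallyClosed

/-!
# Groups all of whose real irreducible characters have degree prime to `p`

If the subgroup generated by the `p`-elements is solvable and every real irreducible character has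
degree prime to `p`, then every normal subgroup containing the subgroup generated by the
`2`-elements with index a power of `p` has a normal Sylow `p`-subgroup; and for odd `p` the
`2`-elements centralize every normal subgroup lying in `K` and in `P'`.
-/

set_option autoImplicit false
open Cfsg CfsgLib.Chars CfsgLib.Chars.Induced CfsgLib.MinNormal

namespace CfsgLib.RealDegree

universe u

variable {G : Type u} [Group G]

/-- The subgroup generated by the elements of `p`-power order. -/
def primeClosure (p : ℕ) (G : Type u) [Group G] : Subgroup G :=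
  Subgroup.closure {g : G | ∃ k : ℕ, orderOf g = p ^ k}

instance primeClosure_normal (p : ℕ) : (primeClosure p G).Normal := by
  suffices h : ∀ g : G, (primeClosure p G).map (MulAut.conj g).toMonoidHom ≤ primeClosure p G from
    ⟨fun x hx g => h g ⟨x, hx, rfl⟩⟩
  intro g
  rw [primeClosure, MonoidHom.map_closure]
  refine Subgroup.closure_mono ?_
  rintro _ ⟨x, ⟨k, hk⟩, rfl⟩
  exact ⟨k, by rw [← hk]; exact MulEquiv.orderOf_eq (MulAut.conj g) x⟩

theorem mem_primeClosure {p : ℕ} {g : G} (h : ∃ k, orderOf g = p ^ k) : g ∈ primeClosure p G :=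
  Subgroup.subset_closure h

theorem primeClosure_map [Finite G] {p : ℕ} [Fact p.Prime] {Q : Type u} [Group Q] (f : G →* Q)
    (hf : Function.Surjective f) : (primeClosure p G).map f = primeClosure p Q := by
  have hp := (Fact.out : p.Prime)
  refine le_antisymm ?_ ?_
  · rw [primeClosure, MonoidHom.map_closure]
    refine Subgroup.closure_mono ?_
    rintro _ ⟨x, ⟨k, hk⟩, rfl⟩
    obtain ⟨i, -, hi⟩ := (Nat.dvd_prime_pow hp).1 (hk ▸ orderOf_map_dvd f x)
    exact ⟨i, hi⟩
  · refine (Subgroup.closure_le _).2 ?_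
    rintro y ⟨k, hk⟩
    obtain ⟨x, rfl⟩ := hf y
    obtain ⟨e, m, hm, hx⟩ := Nat.exists_eq_pow_mul_and_not_dvd (orderOf_pos x).ne' p hp.ne_one
    have hco : Nat.Coprime m (p ^ k) := (Nat.Coprime.pow_left k ((hp.coprime_iff_not_dvd).2 hm)).symm
    obtain ⟨l, hl⟩ := exists_pow_eq_self_of_coprime (x := f x) (n := m) (hk ▸ hco)
    refine ⟨x ^ (m * l), mem_primeClosure ?_, by rw [map_pow, pow_mul, hl]⟩
    obtain ⟨i, -, hi⟩ := (Nat.dvd_prime_pow hp).1 (show orderOf (x ^ (m * l)) ∣ p ^ e by
      rw [orderOf_dvd_iff_pow_eq_one, ← pow_mul, show m * l * p ^ e = p ^ e * m * l by ring,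
        pow_mul, ← hx, pow_orderOf_eq_one, one_pow])
    exact ⟨i, hi⟩

/-- A power of a `2`-element not centralizing `N` inverts nothing but acts as an involution. -/
theorem exists_involutive_power {g : G} {N : Subgroup G} (hg : ∃ k, orderOf g = 2 ^ k)
    (hne : g ∉ Subgroup.centralizer (N : Set G)) :
    ∃ i : ℕ, g ^ 2 ^ i ∉ Subgroup.centralizer (N : Set G) ∧
      g ^ 2 ^ (i + 1) ∈ Subgroup.centralizer (N : Set G) := by
  obtain ⟨k, hk⟩ := hg
  by_contra hcon
  simp only [not_exists, not_and] at hcon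
  have : ∀ i, g ^ 2 ^ i ∉ Subgroup.centralizer (N : Set G) := by
    intro i
    induction i with
    | zero => simpa using hne
    | succ i ih => exact hcon i ih
  exact this k (by rw [← hk, pow_orderOf_eq_one]; exact Subgroup.one_mem _)

/-- A nontrivial linear character inverted by an element acting as an involution. -/
theorem exists_inverted_hom [Finite G] {N : Subgroup G} (hN : N.Normal) {g : G}
    (hg2 : g * g ∈ Subgroup.centralizer (N : Set G)) {n₀ : N}
    (hne : ∀ m : N, (m : G) = g * n₀ * g⁻¹ * (n₀ : G)⁻¹ → m ∉ commutator N) :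
    ∃ lam : N →* ℂˣ, (∀ n n' : N, (n' : G) = g * n * g⁻¹ → lam n' = (lam n)⁻¹) ∧
      lam n₀ ≠ 1 := by
  classical
  let c : N →* N :=
    { toFun := fun n => ⟨g * n * g⁻¹, hN.conj_mem n n.2 g⟩
      map_one' := Subtype.ext (by simp)
      map_mul' := fun a b => Subtype.ext (by simp [mul_assoc]) }
  have hcc : ∀ n, c (c n) = n := fun n => Subtype.ext (by
    show g * (g * n * g⁻¹) * g⁻¹ = n
    rw [show g * (g * (n : G) * g⁻¹) * g⁻¹ = g * g * n * (g * g)⁻¹ by group,
      ← Subgroup.mem_centralizer_iff.1 hg2 n n.2, mul_inv_cancel_right])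
  have ha : Abelianization.of (c n₀ * n₀⁻¹) ≠ (1 : Abelianization N) := by
    intro h
    have h' : c n₀ * n₀⁻¹ ∈ commutator N := (QuotientGroup.eq_one_iff _).1 h
    exact hne _ rfl h'
  haveI : Finite (Abelianization N) := Finite.of_surjective Abelianization.of
    (QuotientGroup.mk'_surjective _)
  obtain ⟨φ, hφ⟩ := CommGroup.exists_apply_ne_one_of_hasEnoughRootsOfUnity (Abelianization N) ℂ ha
  let μ : N →* ℂˣ := φ.comp Abelianization.of
  refine ⟨μ / μ.comp c, fun n n' hn => ?_, fun h => hφ ?_⟩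
  · have : n' = c n := Subtype.ext hn
    subst this
    simp [hcc]
  · simp only [MonoidHom.div_apply, MonoidHom.comp_apply, div_eq_one] at h
    rw [map_mul, map_inv, map_mul, map_inv]
    exact mul_inv_eq_one.2 h.symm

/-- An elementary abelian `2`-group has inverted nontrivial linear characters. -/
theorem exists_self_inverse_hom [Finite G] {N : Subgroup G} (hab : IsMulCommutative N)
    (hex : ∀ n ∈ N, n ^ 2 = 1) (hne : N ≠ ⊥) :
    ∃ lam : N →* ℂˣ, (∀ n n' : N, (n' : G) = 1 * n * 1⁻¹ → lam n' = (lam n)⁻¹) ∧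
      ∃ n₀, lam n₀ ≠ 1 := by
  classical
  obtain ⟨x, hx, hx1⟩ := (show ∃ x : N, x ∈ N.subtype.range.subgroupOf N ∧ x ≠ 1 from
    ((Subgroup.ne_bot_iff_exists_ne_one).1 hne).imp fun a h => ⟨⟨a, rfl⟩, h⟩)
  letI : CommGroup N := { (inferInstance : Group N) with mul_comm := hab.is_comm.comm }
  obtain ⟨φ, hφ⟩ := CommGroup.exists_apply_ne_one_of_hasEnoughRootsOfUnity N ℂ hx1
  refine ⟨φ, fun n n' hn => ?_, x, hφ⟩
  have : n' = n := Subtype.ext (by simpa using hn)
  subst this
  rw [eq_inv_iff_mul_eq_one, ← map_mul, show n' * n' = 1 from Subtype.ext (by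
    rw [← pow_two, Subgroup.coe_one, SubmonoidClass.coe_pow]; exact hex _ n'.2), map_one]

/-- **Normal Sylow subgroups.** -/
theorem exists_normal_sylow (p : ℕ) [Fact p.Prime] (n : ℕ) :
    ∀ (G : Type u) [Group G] [Finite G], Nat.card G = n →
      Group.IsSolvable (primeClosure p G) →
      (∀ χ : IrrCharacter G, (∀ g : G, ((χ : G → ℂ) g).im = 0) → ¬ p ∣ charDegree (χ : G → ℂ)) →
      ∀ U : Subgroup G, U.Normal → primeClosure 2 G ≤ U →
        (∃ a, (primeClosure 2 G).relIndex U = p ^ a) →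
        ∃ P : Subgroup G, P.Normal ∧ P ≤ U ∧ IsPGroup p P ∧ ¬ p ∣ P.relIndex U := by
  classical
  have hp := (Fact.out : p.Prime)
  haveI : Fact (Nat.Prime 2) := ⟨Nat.prime_two⟩
  induction n using Nat.strong_induction_on with
  | _ n ih =>
  intro G _ _ hn hsolv hreal U hU hKU hidx
  obtain ⟨a, hUa⟩ := hidx
  set K := primeClosure 2 G with hKdef
  set O := primeClosure p G with hOdef
  by_cases hK : K = ⊥
  · refine ⟨U, hU, le_rfl, IsPGroup.of_card (n := a) ?_, by
      rw [Subgroup.relIndex_self]; exact fun h => hp.ne_one (Nat.dvd_one.1 h)⟩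
    rw [← hUa, hK, Subgroup.relIndex_bot_left]
  obtain ⟨N, hNmin, hNK⟩ := exists_isMinNormal_le (inferInstance : K.Normal) hK
  haveI hNn := hNmin.normal
  -- the quotient
  let π := QuotientGroup.mk' N
  have hπ : Function.Surjective π := QuotientGroup.mk'_surjective N
  have hlt : Nat.card (G ⧸ N) < n := by
    rw [← hn, ← N.index_mul_card, ← Subgroup.index_eq_card]
    exact lt_mul_of_one_lt_right (Nat.pos_of_ne_zero Subgroup.index_ne_zero_of_finite)
      ((Subgroup.one_lt_card_iff_ne_bot _).2 hNmin.ne_bot)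
  have hsolv' : Group.IsSolvable (primeClosure p (G ⧸ N)) := by
    rw [← primeClosure_map π hπ]
    exact Group.isSolvable_of_surjective (π.subgroupMap_surjective O)
  have hreal' : ∀ χ : IrrCharacter (G ⧸ N), (∀ g, ((χ : G ⧸ N → ℂ) g).im = 0) →
      ¬ p ∣ charDegree (χ : G ⧸ N → ℂ) := fun χ hχ =>
    hreal ⟨_, isIrrCharacter_quotient_lift χ⟩ fun g => hχ _
  obtain ⟨P', hP'n, hP'U, hP'p, hP'idx⟩ := ih _ hlt (G ⧸ N) rfl hsolv' hreal' (U.map π)
    (hU.map _ hπ) (by rw [← primeClosure_map π hπ]; exact Subgroup.map_mono hKU) (by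
      rw [← primeClosure_map π hπ]
      have h : (K.map π).relIndex (U.map π) ∣ K.relIndex U := by
        rw [Subgroup.relIndex_map_map, QuotientGroup.ker_mk',
          sup_eq_left.2 hNK, sup_eq_left.2 (hNK.trans hKU)]
      obtain ⟨i, -, hi⟩ := (Nat.dvd_prime_pow hp).1 (hUa ▸ h)
      exact ⟨i, hi⟩)
  let L : Subgroup G := P'.comap π
  haveI hLn : L.Normal := hP'n.comap π
  have hNL : N ≤ L := fun x hx => by
    show π x ∈ P'
    rw [show π x = 1 from (QuotientGroup.eq_one_iff x).2 hx]
    exact P'.one_mem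
  have hLU : L ≤ U := by
    intro x hx
    obtain ⟨y, hy, hyx⟩ := hP'U hx
    have h1 : y⁻¹ * x ∈ N := (QuotientGroup.eq (s := N)).1 hyx
    simpa using U.mul_mem hy (hKU (hNK h1))
  have hLidx : ¬ p ∣ L.relIndex U := by
    rwa [show L.relIndex U = P'.relIndex (U.map π) from Subgroup.relIndex_comap P' π U]
  have hLN : IsPGroup p (L.map π) := hP'p.to_le (Subgroup.map_comap_le π P')
  obtain ⟨P1⟩ : Nonempty (Sylow p L) := inferInstance
  let S : Subgroup G := (P1 : Subgroup L).map L.subtype
  have hSp : IsPGroup p S := P1.isPGroup'.map _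
  have hSL : S ≤ L := Subgroup.map_subtype_le _
  have hSidx : ¬ p ∣ S.relIndex L := by
    rw [Subgroup.relIndex, subgroupOf_map_subtype']
    exact P1.not_dvd_index
  have hdone : ∀ T : Subgroup G, T.Normal → T ≤ L → IsPGroup p T → ¬ p ∣ T.relIndex L →
      ∃ P : Subgroup G, P.Normal ∧ P ≤ U ∧ IsPGroup p P ∧ ¬ p ∣ P.relIndex U := by
    intro T hT hTL hTp hTidx
    refine ⟨T, hT, hTL.trans hLU, hTp, ?_⟩
    rw [← Subgroup.relIndex_mul_relIndex T L U hTL hLU]
    exact fun h => (hp.dvd_mul.1 h).elim hTidx hLidx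
  by_cases hNp : IsPGroup p N
  · refine hdone L hLn le_rfl ?_ (by
      rw [Subgroup.relIndex_self]; exact fun h => hp.ne_one (Nat.dvd_one.1 h))
    intro x
    obtain ⟨i, hi⟩ := hLN ⟨π x, x, x.2, rfl⟩
    have hxi : (x : G) ^ p ^ i ∈ N := by
      refine (QuotientGroup.eq_one_iff (N := N) _).1 ?_
      have := congrArg Subtype.val hi
      simpa [π] using this
    obtain ⟨j, hj⟩ := hNp ⟨_, hxi⟩
    refine ⟨i + j, Subtype.ext ?_⟩
    rw [SubmonoidClass.coe_pow, pow_add, pow_mul]
    exact congrArg Subtype.val hj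
  have hLgen : ∀ x ∈ L, ∃ m ∈ N, ∃ s ∈ S, x = m * s := by
    have hsup : N ⊔ S = L := by
      refine le_antisymm (sup_le hNL hSL) ?_
      have h1 : (N ⊔ S).relIndex L ∣ S.relIndex L := Subgroup.relIndex_dvd_of_le_left L le_sup_right
      have h2 : (N ⊔ S).relIndex L ∣ N.relIndex L := Subgroup.relIndex_dvd_of_le_left L le_sup_left
      have h3 : N.relIndex L = Nat.card (L.map π) := by
        rw [Subgroup.relIndex, Subgroup.index_eq_card]
        exact Nat.card_congr ((QuotientGroup.quotientMulEquivOfEq (by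
          ext x; simp [Subgroup.mem_subgroupOf, MonoidHom.mem_ker, π])).trans
          ((QuotientGroup.quotientKerEquivRange (π.comp L.subtype)).trans
            (MulEquiv.subgroupCongr (by rw [MonoidHom.range_comp, Subgroup.range_subtype])))).toEquiv
      obtain ⟨i, hi⟩ := IsPGroup.iff_card.1 hLN
      rw [h3, hi] at h2
      obtain ⟨j, -, hj⟩ := (Nat.dvd_prime_pow hp).1 h2
      rw [hj] at h1
      have hj0 : j = 0 := by
        by_contra hj0
        exact hSidx ((dvd_pow_self p hj0).trans h1)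
      rw [← Subgroup.relIndex_eq_one, hj, hj0, pow_zero]
    intro x hx
    rw [← hsup, ← SetLike.mem_coe, Subgroup.normal_mul N S] at hx
    obtain ⟨m, hm, s, hs, rfl⟩ := hx
    exact ⟨m, hm, s, hs, rfl⟩
  -- centralizing case
  by_cases hcent : N ≤ Subgroup.centralizer (S : Set G)
  · have hSN : S.Normal → _ := fun h => hdone S h hSL hSp hSidx
    refine hSN ?_
    have hP1n : (P1 : Subgroup L).Normal := by
      refine ⟨fun s hs g => ?_⟩
      obtain ⟨m, hm, t, ht, hg⟩ := hLgen g g.2
      obtain ⟨t', ht', rfl⟩ := ht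
      have h1 : (t' * s * t'⁻¹ : L) ∈ (P1 : Subgroup L) := mul_mem (mul_mem ht' hs) (inv_mem ht')
      have hc : ((t' * s * t'⁻¹ : L) : G) * m = m * ((t' * s * t'⁻¹ : L) : G) :=
        Subgroup.mem_centralizer_iff.1 (hcent hm) _ ⟨_, h1, rfl⟩
      have e : g * s * g⁻¹ = t' * s * t'⁻¹ := Subtype.ext (by
        simp only [Subgroup.coe_mul, Subgroup.coe_inv, hg] at hc ⊢
        calc m * L.subtype t' * (s : G) * (m * L.subtype t')⁻¹
            = m * ((t' : G) * s * (t' : G)⁻¹) * m⁻¹ := by simp [mul_assoc]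
          _ = _ := by rw [← hc, mul_inv_cancel_right])
      rwa [e]
    haveI : (P1 : Subgroup L).Characteristic := P1.characteristic_of_normal hP1n
    exact ConjAct.normal_of_characteristic_of_normal
  -- the abelian case
  have hNO : N ≤ O := by
    rcases hNmin.eq_or_eq (N ⊓ O) inferInstance inf_le_left with h | h
    · exfalso
      refine hcent fun m hm => Subgroup.mem_centralizer_iff.2 fun s hs => ?_
      have hsO : s ∈ O := by
        obtain ⟨i, hi⟩ := IsPGroup.iff_orderOf.1 hSp ⟨s, hs⟩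
        exact mem_primeClosure ⟨i, by rw [← hi, Subgroup.orderOf_mk]⟩
      exact ((Subgroup.commute_of_normal_of_disjoint N O hNn inferInstance (disjoint_iff.2 h)
        m s hm hsO).symm).eq
    · exact inf_eq_left.1 h
  obtain ⟨q, hq, hab, hNq, hNexp⟩ := hNmin.exists_elementary_of_isSolvable
    (Group.isSolvable_of_isSolvable_injective (f := Subgroup.inclusion hNO)
      (Subgroup.inclusion_injective hNO))
  haveI : Fact q.Prime := ⟨hq⟩
  have hqp : q ≠ p := fun h => hNp (h ▸ hNq)
  have hNS : N ⊓ S = ⊥ := Subgroup.inf_eq_bot_of_coprime (by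
    obtain ⟨i, hi⟩ := IsPGroup.iff_card.1 hNq
    obtain ⟨j, hj⟩ := IsPGroup.iff_card.1 hSp
    rw [hi, hj]
    exact Nat.Coprime.pow i j ((Nat.coprime_primes hq hp).2 hqp))
  set H := Subgroup.normalizer (S : Set G) with hHdef
  have hfr : H ⊔ L = ⊤ := P1.normalizer_sup_eq_top
  have hgen : ∀ g : G, ∃ m ∈ N, ∃ h ∈ H, g = m * h := by
    intro g
    have hg : g ∈ L ⊔ H := by rw [sup_comm, hfr]; trivial
    rw [← SetLike.mem_coe, Subgroup.normal_mul L H] at hg
    obtain ⟨l, hl, h, hh, rfl⟩ := hg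
    obtain ⟨m, hm, s, hs, rfl⟩ := hLgen l hl
    exact ⟨m, hm, s * h, H.mul_mem (Subgroup.le_normalizer hs) hh, mul_assoc m s h⟩
  have hNH : N ⊓ H = ⊥ := by
    have hCS : N ⊓ H ≤ Subgroup.centralizer (S : Set G) := by
      rintro m ⟨hm, hmH⟩
      rw [Subgroup.mem_centralizer_iff]
      intro s hs
      have h1 : m * s * m⁻¹ * s⁻¹ ∈ N ⊓ S := ⟨by
        rw [show m * s * m⁻¹ * s⁻¹ = m * (s * m⁻¹ * s⁻¹) by group]
        exact N.mul_mem hm (hNn.conj_mem _ (N.inv_mem hm) s),
        S.mul_mem ((Subgroup.mem_normalizer_iff.1 hmH s).1 hs) (S.inv_mem hs)⟩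
      rw [hNS, Subgroup.mem_bot] at h1
      calc s * m = 1 * (s * m) := (one_mul _).symm
        _ = m * s * m⁻¹ * s⁻¹ * (s * m) := by rw [h1]
        _ = m * s := by group
    refine (hNmin.eq_or_eq (N ⊓ H) ⟨fun x hx g => ?_⟩ inf_le_left).resolve_right fun h =>
      hcent (h ▸ hCS)
    obtain ⟨m, hm, h, hh, rfl⟩ := hgen g
    have h1 : h * x * h⁻¹ ∈ N ⊓ H :=
      ⟨hNn.conj_mem x hx.1 h, H.mul_mem (H.mul_mem hh hx.2) (H.inv_mem hh)⟩
    have hc : m * (h * x * h⁻¹) = (h * x * h⁻¹) * m :=
      congrArg Subtype.val (hab.is_comm.comm ⟨m, hm⟩ ⟨_, h1.1⟩)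
    rw [show m * h * x * (m * h)⁻¹ = m * (h * x * h⁻¹) * m⁻¹ by group, hc, mul_inv_cancel_right]
    exact h1
  -- an inverted character
  obtain ⟨x, lam, hinv, n₀, hn₀⟩ : ∃ (x : G) (lam : N →* ℂˣ),
      (∀ n n' : N, (n' : G) = x * n * x⁻¹ → lam n' = (lam n)⁻¹) ∧ ∃ n₀, lam n₀ ≠ 1 := by
    by_cases hq2 : q = 2
    · subst hq2
      exact ⟨1, exists_self_inverse_hom hab hNexp hNmin.ne_bot⟩
    · by_cases hKC : K ≤ Subgroup.centralizer (N : Set G)
      · exfalso
        have hKH : (K ⊓ H).Normal := ⟨fun x hx g => by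
          obtain ⟨m, hm, h, hh, rfl⟩ := hgen g
          have h1 : h * x * h⁻¹ ∈ K ⊓ H :=
            ⟨(inferInstance : K.Normal).conj_mem x hx.1 h,
              H.mul_mem (H.mul_mem hh hx.2) (H.inv_mem hh)⟩
          rw [show m * h * x * (m * h)⁻¹ = m * (h * x * h⁻¹) * m⁻¹ by group,
            Subgroup.mem_centralizer_iff.1 (hKC h1.1) m hm, mul_inv_cancel_right]
          exact h1⟩
        have hle : K ≤ K ⊓ H := by
          refine (Subgroup.closure_le _).2 ?_
          rintro y ⟨k, hk⟩
          have hyK : y ∈ K := mem_primeClosure ⟨k, hk⟩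
          obtain ⟨m, hm, h, hh, rfl⟩ := hgen y
          have hhK : h ∈ K := by simpa using K.mul_mem (K.inv_mem (hNK hm)) hyK
          have hc : Commute m h := Subgroup.mem_centralizer_iff.1 (hKC hhK) m hm
          have hm2 : m ^ 2 ^ k = 1 := by
            have h1 : m ^ 2 ^ k * h ^ 2 ^ k = 1 := by
              rw [← hc.mul_pow, ← hk, pow_orderOf_eq_one]
            have h2 : m ^ 2 ^ k ∈ N ⊓ H := ⟨N.pow_mem hm _, by
              rw [mul_eq_one_iff_eq_inv.1 h1]; exact H.inv_mem (H.pow_mem hh _)⟩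
            rwa [hNH, Subgroup.mem_bot] at h2
          have hm1 : m = 1 := by
            have h1 : orderOf m ∣ Nat.gcd (2 ^ k) q := Nat.dvd_gcd
              (orderOf_dvd_of_pow_eq_one hm2) (orderOf_dvd_of_pow_eq_one (hNexp m hm))
            rwa [((Nat.coprime_primes Nat.prime_two hq).2 (Ne.symm hq2)).pow_left k,
              Nat.dvd_one, orderOf_eq_one_iff] at h1
          subst hm1
          exact ⟨by simpa using hhK, by simpa using hh⟩
        exact hNmin.ne_bot (le_bot_iff.1 (by
          rw [← hNH]; exact le_inf le_rfl (hNK.trans (hle.trans inf_le_right))))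
      · obtain ⟨y, ⟨k, hk⟩, hy⟩ : ∃ y : G, (∃ k, orderOf y = 2 ^ k) ∧
            y ∉ Subgroup.centralizer (N : Set G) := by
          by_contra hcon
          simp only [not_exists, not_and, not_not] at hcon
          exact hKC ((Subgroup.closure_le _).2 fun y hy => hcon y hy)
        obtain ⟨i, hi, hi'⟩ := exists_involutive_power ⟨k, hk⟩ hy
        obtain ⟨n₀, hn₀⟩ : ∃ n₀ : N, y ^ 2 ^ i * (n₀ : G) * (y ^ 2 ^ i)⁻¹ ≠ n₀ := by
          by_contra hcon
          simp only [not_exists, not_not] at hcon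
          exact hi (Subgroup.mem_centralizer_iff.2 fun m hm =>
            (mul_inv_eq_iff_eq_mul.1 (hcon ⟨m, hm⟩)).symm)
        have hcomm : commutator N = ⊥ := by
          rw [commutator_def, Subgroup.commutator_eq_bot_iff_le_centralizer]
          intro a _
          exact Subgroup.mem_centralizer_iff.2 fun b _ => hab.is_comm.comm b a
        obtain ⟨lam, h1, h2⟩ := exists_inverted_hom hNn
          (g := y ^ 2 ^ i) (by rwa [← pow_add, ← two_mul, ← pow_succ']) (n₀ := n₀)
          fun m hm hmc => hn₀ (by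
            rw [hcomm, Subgroup.mem_bot] at hmc
            rw [hmc, Subgroup.coe_one] at hm
            exact mul_inv_eq_one.1 hm.symm)
        exact ⟨_, lam, h1, n₀, h2⟩
  haveI := Fintype.ofFinite G
  haveI : Fintype N := Fintype.ofFinite _
  obtain ⟨χ, hχr, hχd⟩ := exists_real_degree_inertia H hNH hgen hab lam hinv
  exfalso
  set T := inertia N (linChar lam : N → ℂ) with hTdef
  have hT : ¬ p ∣ T.index := hχd ▸ hreal χ hχr
  have hNT : N ≤ T := le_inertia (isClassFunction_coe _)
  have hLT : L ≤ T := by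
    rw [← Subgroup.relIndex_eq_one]
    have h1 : T.relIndex L ∣ T.index := by
      have e1 := Subgroup.relIndex_mul_index (H := T ⊓ L) (K := L) inf_le_right
      have e2 := Subgroup.relIndex_mul_index (H := T ⊓ L) (K := T) inf_le_left
      rw [Subgroup.inf_relIndex_right] at e1
      rw [Subgroup.inf_relIndex_left] at e2
      exact relIndex_dvd_index_of_normal_right T L
    have h2 : T.relIndex L ∣ Nat.card (L.map π) := by
      have h3 : N.relIndex L = Nat.card (L.map π) := by
        rw [Subgroup.relIndex, Subgroup.index_eq_card]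
        exact Nat.card_congr ((QuotientGroup.quotientMulEquivOfEq (by
          ext x; simp [Subgroup.mem_subgroupOf, MonoidHom.mem_ker, π])).trans
          ((QuotientGroup.quotientKerEquivRange (π.comp L.subtype)).trans
            (MulEquiv.subgroupCongr (by rw [MonoidHom.range_comp, Subgroup.range_subtype])))).toEquiv
      exact h3 ▸ Subgroup.relIndex_dvd_of_le_left L hNT
    obtain ⟨i, hi⟩ := IsPGroup.iff_card.1 hLN
    rw [hi] at h2
    obtain ⟨j, -, hj⟩ := (Nat.dvd_prime_pow hp).1 h2
    rcases Nat.eq_zero_or_pos j with rfl | hj0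
    · rw [hj, pow_zero]
    · exact absurd ((dvd_pow_self p hj0.ne').trans (hj ▸ h1)) hT
  -- the kernel contains `[N, L]`
  have hker : ⁅N, L⁆ ≤ lam.ker.map N.subtype := by
    rw [Subgroup.commutator_le]
    intro m hm l hl
    have hmem : l * m⁻¹ * l⁻¹ ∈ N := hNn.conj_mem _ (N.inv_mem hm) l
    refine ⟨⟨m, hm⟩ * ⟨_, hmem⟩, ?_, by
      simp [commutatorElement_def, mul_assoc]⟩
    rw [SetLike.mem_coe, MonoidHom.mem_ker, map_mul,
      (mem_inertia_linChar_iff lam l⁻¹).1 (T.inv_mem (hLT hl)) ⟨m⁻¹, N.inv_mem hm⟩ ⟨_, hmem⟩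
        (by simp), ← map_mul]
    rw [show (⟨m, hm⟩ * ⟨m⁻¹, N.inv_mem hm⟩ : N) = 1 from Subtype.ext (mul_inv_cancel m), map_one]
  rcases hNmin.eq_or_eq ⁅N, L⁆ inferInstance (Subgroup.commutator_le_left N L) with h | h
  · rw [Subgroup.commutator_eq_bot_iff_le_centralizer] at h
    exact hcent (h.trans (Subgroup.centralizer_le hSL))
  · rw [h] at hker
    obtain ⟨m, hm, hm'⟩ := hker n₀.2
    rw [Subgroup.subtype_injective _ hm'] at hm
    exact hn₀ hm

/-- The conclusion for Sylow subgroups of `U`. -/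
theorem sylow_normal (p : ℕ) [Fact p.Prime] {G : Type u} [Group G] [Finite G]
    (hsolv : Group.IsSolvable (primeClosure p G))
    (hreal : ∀ χ : IrrCharacter G, (∀ g : G, ((χ : G → ℂ) g).im = 0) →
      ¬ p ∣ charDegree (χ : G → ℂ))
    (U : Subgroup G) (hU : U.Normal) (hKU : primeClosure 2 G ≤ U)
    (hidx : ∃ a, (primeClosure 2 G).relIndex U = p ^ a) (Q : Sylow p U) :
    (Q : Subgroup U).Normal := by
  obtain ⟨P, hPn, hPU, hPp, hPidx⟩ :=
    exists_normal_sylow p _ G rfl hsolv hreal U hU hKU hidx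
  haveI : (P.subgroupOf U).Normal := hPn.comap U.subtype
  let P1 : Sylow p U := (hPp.comap_subtype (K := U)).toSylow hPidx
  haveI : (P1 : Subgroup U).Normal := by
    show (P.subgroupOf U).Normal
    infer_instance
  haveI := Sylow.unique_of_normal P1 inferInstance
  rw [Subsingleton.elim Q P1]
  infer_instance

/-- **The `2`-elements centralize normal subgroups inside `K` and `P'`.** -/
theorem le_centralizer_of_le_derived (p : ℕ) [Fact p.Prime] (hp2 : p ≠ 2) {G : Type u} [Group G]
    [Finite G] (hreal : ∀ χ : IrrCharacter G, (∀ g : G, ((χ : G → ℂ) g).im = 0) →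
      ¬ p ∣ charDegree (χ : G → ℂ)) (P : Sylow p G) (N : Subgroup G) [N.Normal]
    (hNP : N ≤ ⁅(P : Subgroup G), (P : Subgroup G)⁆) :
    primeClosure 2 G ≤ Subgroup.centralizer (N : Set G) := by
  classical
  have hp := (Fact.out : p.Prime)
  haveI := Fintype.ofFinite G
  haveI : Fintype N := Fintype.ofFinite _
  refine (Subgroup.closure_le _).2 ?_
  rintro y ⟨k, hk⟩
  by_contra hy
  obtain ⟨i, hi, hi'⟩ := exists_involutive_power ⟨k, hk⟩ hy
  set g := y ^ 2 ^ i with hg
  have hNP' : IsPGroup p N := P.isPGroup'.to_le (hNP.trans (Subgroup.commutator_le_self _))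
  obtain ⟨e, he⟩ := IsPGroup.iff_card.1 hNP'
  -- nontrivial on the abelianization
  obtain ⟨n₀, hn₀⟩ : ∃ n₀ : N, ∀ m : N, (m : G) = g * n₀ * g⁻¹ * (n₀ : G)⁻¹ → m ∉ commutator N := by
    by_contra hcon
    simp only [not_exists, not_forall, not_not] at hcon
    have hord : Nat.card (Subgroup.zpowers g) ∣ 2 ^ k := by
      rw [Nat.card_zpowers, ← hk]
      exact orderOf_pow_dvd _
    refine hi ?_
    have h := CfsgLib.Coprime.le_centralizer_of_frattini (A := Subgroup.zpowers g) (G := N)
      (by rw [Subgroup.normalizer_eq_top_iff.2 inferInstance]; exact le_top)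
      (by
        rw [he]
        exact (Nat.Coprime.pow k e ((Nat.coprime_primes Nat.prime_two hp).2 (Ne.symm hp2))).coprime_dvd_left hord)
      (by
        rw [Subgroup.commutator_le]
        intro m hm a ha
        refine CfsgLib.Coprime.commutator_le_frattini_map hNP' ?_
        obtain ⟨z, rfl⟩ := Subgroup.mem_zpowers_iff.1 ha
        have hstep : ∀ (z : ℤ) (m : G), m ∈ N → m * g ^ z * m⁻¹ * (g ^ z)⁻¹ ∈ ⁅N, N⁆ := by
          have hone : ∀ m ∈ N, g * m * g⁻¹ * m⁻¹ ∈ ⁅N, N⁆ := by
            intro m hm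
            obtain ⟨c, hc, hcc⟩ := hcon ⟨m, hm⟩
            rw [← Subgroup.map_subtype_commutator]
            exact ⟨c, hcc, hc⟩
          let C : Subgroup G :=
            { carrier := {a | ∀ m ∈ N, a * m * a⁻¹ * m⁻¹ ∈ ⁅N, N⁆}
              one_mem' := fun m _ => by simp
              mul_mem' := fun {a b} ha hb m hm => by
                have hbm : b * m * b⁻¹ ∈ N := (inferInstance : N.Normal).conj_mem m hm b
                have := (⁅N, N⁆).mul_mem (ha _ hbm) (hb m hm)
                convert this using 1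
                group
              inv_mem' := fun {a} ha m hm => by
                have ham : a⁻¹ * m * a ∈ N := by
                  simpa using (inferInstance : N.Normal).conj_mem m hm a⁻¹
                have := (⁅N, N⁆).inv_mem (ha _ ham)
                convert this using 1
                group }
          intro z m hm
          have hz : g ^ z ∈ C := C.zpow_mem hone z
          have := (⁅N, N⁆).inv_mem (hz m hm)
          convert this using 1
          group
        exact hstep z m hm)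
    exact Subgroup.mem_centralizer_iff.2 fun m hm =>
      ((Subgroup.mem_centralizer_iff.1 (h hm)) g (Subgroup.mem_zpowers g)).symm
  have hg2 : g * g ∈ Subgroup.centralizer (N : Set G) := by
    rwa [hg, ← pow_add, ← two_mul, ← pow_succ']
  obtain ⟨lam, hlam, hlam1⟩ := exists_inverted_hom (inferInstance : N.Normal) hg2 hn₀
  have hodd : Odd (Nat.card N) := he ▸ (hp.odd_of_ne_two hp2).pow
  obtain ⟨χ, hχr, hχm⟩ := exists_real_over hodd lam hlam
  -- a linear constituent on `P`
  haveI : Fintype (P : Subgroup G) := Fintype.ofFinite _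
  have hres : IsCharacter (P : Subgroup G) (fun u : (P : Subgroup G) => (χ : G → ℂ) u) :=
    isCharacter_restrict (isCharacter_coe χ) _
  obtain ⟨s, hs, hsum⟩ := exists_eq_sum_mult hres
  obtain ⟨ψ, hψs, hψ1⟩ : ∃ ψ ∈ s, charDegree (ψ : ↥(P : Subgroup G) → ℂ) = 1 := by
    by_contra hcon
    simp only [not_exists, not_and] at hcon
    have h := congrFun hsum 1
    simp only [Finset.sum_apply, Pi.smul_apply, smul_eq_mul, OneMemClass.coe_one,
      ← coe_charDegree] at h
    have h' : charDegree (χ : G → ℂ) = ∑ ψ ∈ s,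
        mult (fun u : (P : Subgroup G) => (χ : G → ℂ) u) ψ * charDegree (ψ : ↥(P : Subgroup G) → ℂ) := by
      exact_mod_cast h
    refine hreal χ hχr (h' ▸ Finset.dvd_sum fun ψ hψ => Dvd.dvd.mul_left ?_ _)
    obtain ⟨j, hj⟩ := IsPGroup.iff_card.1 P.isPGroup'
    obtain ⟨l, -, hl⟩ := (Nat.dvd_prime_pow hp).1 (hj ▸ charDegree_dvd_card ψ)
    rw [hl]
    exact dvd_pow_self p fun hl0 => hcon ψ hψ (by rw [hl, hl0, pow_zero])
  obtain ⟨μ, hμ⟩ := exists_linChar_eq ψ (by rw [← coe_charDegree, hψ1, Nat.cast_one])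
  have hNle : N ≤ (P : Subgroup G) := hNP.trans (Subgroup.commutator_le_self _)
  have htriv : ∀ m : N, μ (Subgroup.inclusion hNle m) = 1 := by
    intro m
    have h1 : ∀ c ∈ commutator (P : Subgroup G), μ c = 1 := fun c hc =>
      MonoidHom.mem_ker.1 (Abelianization.commutator_subset_ker μ hc)
    have h2 := hNP m.2
    rw [← Subgroup.map_subtype_commutator] at h2
    obtain ⟨c, hc, hcm⟩ := h2
    have : Subgroup.inclusion hNle m = c := Subtype.ext hcm.symm
    rw [this]
    exact h1 c hc
  have hone : mult (fun n : N => (χ : G → ℂ) n) (linChar (1 : N →* ℂˣ)) ≠ 0 := by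
    have h := mult_mul_mult_le_restrict (Subgroup.inclusion hNle) hres ψ (linChar (1 : N →* ℂˣ))
    have h1 : mult (fun n : N => (ψ : ↥(P : Subgroup G) → ℂ) (Subgroup.inclusion hNle n))
        (linChar (1 : N →* ℂˣ)) = 1 := by
      rw [show (fun n : N => (ψ : ↥(P : Subgroup G) → ℂ) (Subgroup.inclusion hNle n)) =
        (linChar (1 : N →* ℂˣ) : N → ℂ) from funext fun n => by
          simp [← hμ, htriv n], mult_irr]
      simp
    rw [h1, mul_one] at h
    exact fun h0 => (hs ψ).1 hψs (Nat.le_zero.1 (h.trans_eq h0))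
  obtain ⟨z, hz⟩ := mem_conjOrbit_of_mult_ne_zero χ (linChar 1) (linChar lam) hone hχm
  have := congrFun (congrArg Subtype.val hz) n₀
  simp [conjFun] at this
  exact hlam1 (Units.ext this.symm)

end CfsgLib.RealDegree
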