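import Cfsg.Agent.RealDegree.RealClasses
import Cfsg.Agent.Glauberman.FixedOdd
import Cfsg.Agent.Glauberman.NormalSylow.Main

/-!
# Real characters of a group and of a Sylow normalizer

Real characters over a normal subgroup of odd index correspond to orbits of real characters below;
combined with the correspondence relative to a normal Sylow subgroup this gives a bijection between
the real characters of the group and those of degree prime to `p` of the normalizer.
-/

set_option autoImplicit false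
open Cfsg MulAction CfsgLib.Chars CfsgLib.Chars.Induced
open scoped ComplexConjugate

namespace CfsgLib.RealDegree

universe u

theorem starIrr_eq_iff {H : Type u} [Group H] [Finite H] (χ : IrrCharacter H) :
    starIrr χ = χ ↔ ∀ h, ((χ : H → ℂ) h).im = 0 := by
  rw [Subtype.ext_iff, funext_iff]
  exact forall_congr' fun h => Complex.conj_eq_iff_im

section above

variable {Γ : Type u} [Group Γ] [Fintype Γ] (K : Subgroup Γ) [K.Normal] [Fintype K]

/-- The exponent realising inversion. -/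
theorem pow_two_mul_sub_one {H : Type u} [Group H] [Fintype H] (h : H) :
    h ^ (2 * Nat.card H - 1) = h⁻¹ := by
  refine eq_inv_of_mul_eq_one_left ?_
  rw [← pow_succ, Nat.sub_add_cancel (by have := Nat.card_pos (α := H); omega), mul_comm 2,
    pow_mul, pow_card_eq_one', one_pow]

omit [Fintype K] in
theorem coprime_two_mul_sub_one : (2 * Nat.card Γ - 1).Coprime (Nat.card Γ) := by
  refine Nat.coprime_of_dvd' fun r hr h1 h2 => ?_
  have := Nat.dvd_sub (h2.mul_left 2) h1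
  rwa [Nat.sub_sub_self (by have := Nat.card_pos (α := Γ); omega)] at this

variable {K}

/-- Being real means being fixed by inversion. -/
theorem real_iff_pow {H : Type u} [Group H] [Fintype H] (χ : IrrCharacter H) {m : ℕ}
    (hm : ∀ h : H, h ^ m = h⁻¹) :
    (∀ h, ((χ : H → ℂ) h).im = 0) ↔ ∀ h, (χ : H → ℂ) (h ^ m) = (χ : H → ℂ) h := by
  refine forall_congr' fun h => ?_
  rw [hm, map_inv_eq_conj (isCharacter_coe χ), Complex.conj_eq_iff_im]

/-- Only one real character lies over a real character. -/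
theorem real_above_unique (hodd : Odd K.index) (θ : IrrCharacter K)
    (hθ : ∀ k, ((θ : K → ℂ) k).im = 0) {χ χ' : IrrCharacter Γ}
    (hχ : ∀ g, ((χ : Γ → ℂ) g).im = 0) (hχ' : ∀ g, ((χ' : Γ → ℂ) g).im = 0)
    (h : CfsgLib.Chars.Induced.mult (fun n : K => (χ : Γ → ℂ) n) θ ≠ 0)
    (h' : CfsgLib.Chars.Induced.mult (fun n : K => (χ' : Γ → ℂ) n) θ ≠ 0) : χ = χ' := by
  have hm : ∀ g : Γ, g ^ (2 * Nat.card Γ - 1) = g⁻¹ := pow_two_mul_sub_one
  have hmK : ∀ k : K, k ^ (2 * Nat.card Γ - 1) = k⁻¹ := fun k => Subtype.ext (by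
    rw [Subgroup.coe_pow, hm, InvMemClass.coe_inv])
  exact (CfsgLib.Glauberman.existsUnique_fixed_over hodd (coprime_two_mul_sub_one (Γ := Γ))
    (fun g _ => hm g) θ ((real_iff_pow θ hmK).1 hθ)).unique
    ⟨h, (real_iff_pow χ hm).1 hχ⟩ ⟨h', (real_iff_pow χ' hm).1 hχ'⟩

open scoped Classical in
/-- The degree of the real character over a real character. -/
theorem charDegree_real_above (hodd : Odd K.index) (θ : IrrCharacter K)
    (hθ : ∀ k, ((θ : K → ℂ) k).im = 0) {χ : IrrCharacter Γ}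
    (hχ : ∀ g, ((χ : Γ → ℂ) g).im = 0)
    (h : CfsgLib.Chars.Induced.mult (fun n : K => (χ : Γ → ℂ) n) θ ≠ 0) :
    charDegree (χ : Γ → ℂ) = (inertia K (θ : K → ℂ)).index * charDegree (θ : K → ℂ) := by
  set T := inertia K (θ : K → ℂ) with hT
  have hKT : K ≤ T := le_inertia (isClassFunction_coe θ)
  haveI := Fintype.ofFinite (K.subgroupOf T)
  let e : K.subgroupOf T ≃* K := Subgroup.subgroupOfEquivOfLe hKT
  let θ' : IrrCharacter (K.subgroupOf T) :=
    ⟨_, isIrrCharacter_comp θ.2 e.toMonoidHom e.surjective⟩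
  have hθ' : ∀ a, (θ' : K.subgroupOf T → ℂ) a = (θ : K → ℂ) (e a) := fun a => rfl
  have hmT : ∀ t : T, t ^ (2 * Nat.card T - 1) = t⁻¹ := pow_two_mul_sub_one
  have hmK : ∀ a : K.subgroupOf T, a ^ (2 * Nat.card T - 1) = a⁻¹ := fun a => Subtype.ext (by
    rw [Subgroup.coe_pow, hmT, InvMemClass.coe_inv])
  have hoddT : Odd (K.subgroupOf T).index :=
    hodd.of_dvd_nat (Subgroup.relIndex_dvd_index_of_normal K T)
  obtain ⟨ψ, hψ, hψreal⟩ := CfsgLib.Glauberman.exists_fixed_extension (K.subgroupOf T)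
    (e := 1) hoddT (coprime_two_mul_sub_one (Γ := T)) (by
      have h1 : 1 ≤ 2 * Nat.card T := by have := Nat.card_pos (α := T); omega
      rw [← ZMod.natCast_eq_natCast_iff]
      rw [Nat.cast_pow, Nat.cast_sub h1, Nat.cast_mul, ZMod.natCast_self, Nat.cast_one]
      simp)
    (fun t _ => hmT t) θ' ((real_iff_pow θ' hmK).1 fun a => hθ (e a))
    (fun t a => by
      rw [hθ', hθ']
      exact (mem_inertia_iff_forall.1 t.2 _ _ rfl))
  rw [← real_iff_pow ψ hmT] at hψreal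
  have hres : (fun n : K => (ψ : T → ℂ) (Subgroup.inclusion hKT n)) = (θ : K → ℂ) := by
    funext n
    have := hψ (e.symm n)
    rw [hθ', e.apply_symm_apply] at this
    exact this
  have hψθ : CfsgLib.Chars.Induced.mult
      (fun n : K => (ψ : T → ℂ) (Subgroup.inclusion hKT n)) θ ≠ 0 := by
    rw [hres, mult_irr, if_pos rfl]
    exact one_ne_zero
  let χ₀ : IrrCharacter Γ := ⟨_, isIrrCharacter_indFun_inertia hT.symm.symm hKT ψ hψθ⟩
  have hχ₀ : (χ₀ : Γ → ℂ) = indFun T (ψ : T → ℂ) := rfl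
  have hχ₀real : ∀ g, ((χ₀ : Γ → ℂ) g).im = 0 := fun g => by
    rw [← Complex.conj_eq_iff_im, hχ₀, conj_indFun]
    congr 1
    funext t
    exact Complex.conj_eq_iff_im.2 (hψreal t)
  have hmult := (indFun_eq_of_mult_ne_zero hT hKT ψ hψθ χ₀ (by
    rw [← hχ₀, mult_irr, if_pos rfl]
    exact one_ne_zero)).2
  rw [real_above_unique hodd θ hθ hχ hχ₀real h (hmult ▸ hψθ)]
  refine charDegree_eq_of_map_one ?_
  rw [hχ₀, indFun_one_apply, Nat.cast_mul, coe_charDegree]
  congr 1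
  rw [show (ψ : T → ℂ) 1 = (ψ : T → ℂ) (Subgroup.inclusion hKT 1) by rw [map_one]]
  exact congrFun hres 1

/-- A real character has a real constituent on a normal subgroup of odd index. -/
theorem exists_real_below (hodd : Odd K.index) (χ : IrrCharacter Γ)
    (hχ : ∀ g, ((χ : Γ → ℂ) g).im = 0) :
    ∃ θ : IrrCharacter K, (∀ k, ((θ : K → ℂ) k).im = 0) ∧
      CfsgLib.Chars.Induced.mult (fun n : K => (χ : Γ → ℂ) n) θ ≠ 0 := by
  classical
  have hres := isCharacter_restrict (isCharacter_coe χ) K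
  have h1 : (fun n : K => (χ : Γ → ℂ) n) 1 ≠ 0 := by
    simpa using map_one_ne_zero χ
  obtain ⟨θ, hθ⟩ : ∃ θ : IrrCharacter K,
      CfsgLib.Chars.Induced.mult (fun n : K => (χ : Γ → ℂ) n) θ ≠ 0 := by
    obtain ⟨s, hmem, hs⟩ := exists_eq_sum_mult hres
    rcases s.eq_empty_or_nonempty with rfl | ⟨θ, hθ⟩
    · exact absurd (by rw [hs]; simp) h1
    · exact ⟨θ, (hmem θ).1 hθ⟩
  have hstar : ∀ η : IrrCharacter K,
      CfsgLib.Chars.Induced.mult (fun n : K => (χ : Γ → ℂ) n) η ≠ 0 →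
      CfsgLib.Chars.Induced.mult (fun n : K => (χ : Γ → ℂ) n) (starIrr η) ≠ 0 := by
    intro η hη
    rw [mult_ne_zero_iff hres] at hη ⊢
    have e : classInner (fun n : K => (χ : Γ → ℂ) n) (starIrr η : K → ℂ) =
        conj (classInner (fun n : K => (χ : Γ → ℂ) n) (η : K → ℂ)) := by
      simp only [classInner, map_mul, map_inv₀, map_natCast, map_sum, Complex.conj_conj,
        fun n : K => Complex.conj_eq_iff_im.2 (hχ (n : Γ))]
      congr 1
      refine Finset.sum_congr rfl fun n _ => ?_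
      show _ * conj (conj ((η : K → ℂ) n)) = _
      rw [Complex.conj_conj]
    rw [e, map_ne_zero]
    exact hη
  have hmem : ∀ η ∈ conjOrbit (G := Γ) θ,
      CfsgLib.Chars.Induced.mult (fun n : K => (χ : Γ → ℂ) n) η ≠ 0 := by
    rintro _ ⟨x, rfl⟩
    rwa [mult_restrict_conjIrr (isClassFunction_coe χ)]
  haveI : Fintype (conjOrbit (G := Γ) θ) := Fintype.ofFinite _
  let σ : Equiv.Perm (conjOrbit (G := Γ) θ) :=
    Function.Involutive.toPerm
      (fun η => ⟨starIrr η.1,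
        mem_conjOrbit_of_mult_ne_zero χ θ _ hθ (hstar η.1 (hmem η.1 η.2))⟩)
      (fun η => Subtype.ext (Subtype.ext (funext fun k => Complex.conj_conj _)))
  have hσ : σ ^ 2 ^ 1 = 1 := by
    refine Equiv.ext fun η => ?_
    rw [pow_one, pow_two, Equiv.Perm.mul_apply, Equiv.Perm.one_apply]
    exact Subtype.ext (Subtype.ext (funext fun k => Complex.conj_conj _))
  haveI : Fact (Nat.Prime 2) := ⟨Nat.prime_two⟩
  obtain ⟨η, hη⟩ := Equiv.Perm.exists_fixed_point_of_prime (p := 2) (by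
    rw [← Nat.card_eq_fintype_card, card_conjOrbit]
    exact (hodd.of_dvd_nat
      (Subgroup.index_dvd_of_le (le_inertia (isClassFunction_coe θ)))).not_two_dvd_nat) hσ
  exact ⟨η.1, (starIrr_eq_iff η.1).1 (congrArg Subtype.val hη), hmem η.1 η.2⟩

theorem real_conjIrr (x : Γ) {θ : IrrCharacter K} (hθ : ∀ k, ((θ : K → ℂ) k).im = 0) :
    ∀ k, ((conjIrr x θ : K → ℂ) k).im = 0 := fun _ => hθ _

end above

variable (p : ℕ) [Fact p.Prime]

/-- The index of a subgroup containing a Sylow subgroup modulo `p`. -/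
theorem index_modEq_relIndex_normalizer {G : Type u} [Group G] [Finite G] (P : Sylow p G)
    (T : Subgroup G) (hPT : (P : Subgroup G) ≤ T) :
    T.index ≡ T.relIndex (Subgroup.normalizer ((P : Subgroup G) : Set G)) [MOD p] := by
  classical
  set N := Subgroup.normalizer ((P : Subgroup G) : Set G) with hN
  have h := P.isPGroup'.card_modEq_card_fixedPoints (G ⧸ T)
  rw [← Subgroup.index_eq_card] at h
  have hmem : ∀ n : N, (QuotientGroup.mk (n : G) : G ⧸ T) ∈
      fixedPoints (P : Subgroup G) (G ⧸ T) := fun n u => by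
    show (QuotientGroup.mk ((u : G) * n) : G ⧸ T) = _
    rw [QuotientGroup.eq]
    have h1 := (Subgroup.mem_normalizer_iff.1 (N.inv_mem n.2) (u : G)⁻¹).1 (inv_mem u.2)
    rw [inv_inv] at h1
    rw [mul_inv_rev]
    exact hPT h1
  refine h.trans (congrArg (· % p) ?_)
  rw [Subgroup.relIndex, Subgroup.index_eq_card]
  refine (Nat.card_eq_of_bijective (Quotient.lift (fun n : N => (⟨_, hmem n⟩ :
    fixedPoints (P : Subgroup G) (G ⧸ T))) fun a b hab => Subtype.ext ?_) ⟨?_, ?_⟩).symm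
  · rw [QuotientGroup.eq]
    exact Subgroup.mem_subgroupOf.1 (QuotientGroup.leftRel_apply.1 hab)
  · rintro ⟨a⟩ ⟨b⟩ hab
    have h1 := QuotientGroup.eq.1 (congrArg Subtype.val hab)
    exact Quotient.sound (QuotientGroup.leftRel_apply.2 (Subgroup.mem_subgroupOf.2 h1))
  · rintro ⟨c, hc⟩
    obtain ⟨g, rfl⟩ := QuotientGroup.mk_surjective c
    have hle : ∀ u ∈ (P : Subgroup G), g⁻¹ * u * g ∈ T := by
      intro u hu
      have h1 : (QuotientGroup.mk (u * g) : G ⧸ T) = QuotientGroup.mk g := hc ⟨u, hu⟩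
      rw [eq_comm, QuotientGroup.eq, ← mul_assoc] at h1
      exact h1
    have hle' : (g⁻¹ • P : Sylow p G) ≤ (T : Subgroup G) := by
      rw [Sylow.coe_subgroup_smul]
      rintro _ ⟨u, hu, rfl⟩
      simpa using hle u hu
    obtain ⟨t, ht⟩ := MulAction.exists_smul_eq T (P.subtype hPT) ((g⁻¹ • P).subtype hle')
    rw [Sylow.smul_subtype] at ht
    have ht' := Sylow.subtype_injective ht
    have hn : g * t ∈ N := by
      refine Sylow.smul_eq_iff_mem_normalizer.1 ?_
      rw [Subgroup.smul_def] at ht'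
      rw [mul_smul, ht', smul_inv_smul]
    refine ⟨QuotientGroup.mk ⟨g * t, hn⟩, Subtype.ext ?_⟩
    show (QuotientGroup.mk (g * t) : G ⧸ T) = QuotientGroup.mk g
    rw [QuotientGroup.mk_mul_of_mem g t.2]

variable {G : Type u} [Group G] [Fintype G]

open CfsgLib.Glauberman in
set_option maxHeartbeats 2000000 in
/-- **The bijection of real characters.** -/
theorem exists_real_bijection (P₀ K : Subgroup G) [P₀.Normal] [K.Normal] (hP₀ : IsPGroup p P₀)
    (hle : P₀ ≤ K) (hidx : ¬ p ∣ P₀.relIndex K) (hodd : Odd K.index)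
    (hreal : ∀ χ : IrrCharacter G, (∀ g, ((χ : G → ℂ) g).im = 0) → ¬ p ∣ charDegree (χ : G → ℂ))
    (P : Sylow p G) :
    ∃ f : {χ : IrrCharacter G // ∀ g : G, ((χ : G → ℂ) g).im = 0} →
      {ξ : IrrCharacter (Subgroup.normalizer ((P : Subgroup G) : Set G)) //
        (∀ n, ((ξ : Subgroup.normalizer ((P : Subgroup G) : Set G) → ℂ) n).im = 0) ∧
          ¬ p ∣ charDegree (ξ : Subgroup.normalizer ((P : Subgroup G) : Set G) → ℂ)},
      Function.Bijective f ∧ ∀ χ,
        ((charDegree ((f χ).1 : Subgroup.normalizer ((P : Subgroup G) : Set G) → ℂ) : ZMod p) =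
            (charDegree (χ.1 : G → ℂ) : ZMod p) ∨
          (charDegree ((f χ).1 : Subgroup.normalizer ((P : Subgroup G) : Set G) → ℂ) : ZMod p) =
            -(charDegree (χ.1 : G → ℂ) : ZMod p)) := by
  classical
  have hp := (Fact.out : p.Prime)
  set N := Subgroup.normalizer ((P : Subgroup G) : Set G) with hNdef
  haveI := Fintype.ofFinite N
  haveI := Fintype.ofFinite K
  set NK : Subgroup N := K.subgroupOf N with hNKdef
  haveI : NK.Normal := inferInstance
  haveI := Fintype.ofFinite NK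
  have hoddN : Odd NK.index := hodd.of_dvd_nat (Subgroup.relIndex_dvd_index_of_normal K N)
  let e : NK →* K :=
    { toFun := fun a => ⟨((a : N) : G), a.2⟩
      map_one' := rfl
      map_mul' := fun a b => rfl }
  have hnorm : ∀ s ∈ (P : Subgroup G), ∀ k ∈ K, s * k * s⁻¹ ∈ K :=
    fun s _ k hk => ‹K.Normal›.conj_mem k hk s
  letI := conjSubAction K (P : Subgroup G) hnorm
  have hsmul : ∀ (a : (P : Subgroup G)) (k : K), ((a • k : K) : G) = a * k * (a : G)⁻¹ :=
    fun a k => rfl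
  have hP₀P : P₀ ≤ (P : Subgroup G) := by
    obtain ⟨P', hP'⟩ := hP₀.exists_le_sylow
    obtain ⟨c, rfl⟩ := MulAction.exists_smul_eq G P' P
    rw [Sylow.coe_subgroup_smul]
    intro u hu
    refine ⟨c⁻¹ * u * c, hP' (by simpa using ‹P₀.Normal›.conj_mem u hu c⁻¹), ?_⟩
    simp [mul_assoc]
  have hPK : ∀ u ∈ (P : Subgroup G), u ∈ K → u ∈ P₀ := by
    intro u hu huK
    set D := (P : Subgroup G) ⊓ K with hD
    have hDp : IsPGroup p D := P.isPGroup'.to_le inf_le_left
    obtain ⟨m, hm⟩ := IsPGroup.iff_card.1 hDp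
    have h0 : P₀.relIndex D ∣ p ^ m := hm ▸ Subgroup.index_dvd_card _
    have h2 : P₀.relIndex D ∣ P₀.relIndex K :=
      ⟨D.relIndex K, (Subgroup.relIndex_mul_relIndex _ _ _ (le_inf hP₀P hle) inf_le_right).symm⟩
    obtain ⟨i, -, hi⟩ := (Nat.dvd_prime_pow hp).1 h0
    have h1 : P₀.relIndex D = 1 := by
      rcases Nat.eq_zero_or_pos i with hi0 | hi0
      · rw [hi, hi0, pow_zero]
      · exact absurd ((hi ▸ dvd_pow_self p hi0.ne' : p ∣ P₀.relIndex D).trans h2) hidx
    exact Subgroup.relIndex_eq_one.1 h1 ⟨hu, huK⟩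
  set C : Subgroup K := N.subgroupOf K with hCdef
  have hC : ∀ k : K, k ∈ C ↔ ∀ a : (P : Subgroup G), a • k * k⁻¹ ∈ P₀.subgroupOf K := by
    intro k
    simp only [Subgroup.mem_subgroupOf, Subgroup.coe_mul, InvMemClass.coe_inv, hsmul, hCdef,
      hNdef]
    constructor
    · intro hk a
      refine hPK _ ?_ (K.mul_mem (hnorm _ a.2 _ k.2) (K.inv_mem k.2))
      rw [show (a : G) * k * (a : G)⁻¹ * (k : G)⁻¹ = a * (k * (a : G)⁻¹ * (k : G)⁻¹) by group]
      exact mul_mem a.2 ((Subgroup.mem_normalizer_iff.1 hk _).1 (inv_mem a.2))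
    · intro hk
      refine Subgroup.mem_normalizer_fintype fun u hu => ?_
      have h := mul_mem (inv_mem hu) (hP₀P (hk ⟨u, hu⟩))
      have h2 := inv_mem h
      rwa [show (u⁻¹ * (u * (k : G) * u⁻¹ * (k : G)⁻¹))⁻¹ = (k : G) * u * (k : G)⁻¹ by group]
        at h2
  haveI := Fintype.ofFinite C
  haveI := Fintype.ofFinite (P₀.subgroupOf K)
  haveI : (P₀.subgroupOf K).Normal := inferInstance
  obtain ⟨hcorr1, hcorr2, hcorr3⟩ :=
    CfsgLib.Glauberman.NormalSylow.correspondence_main (p := p) P.isPGroup' (P₀.subgroupOf K) C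
      (fun a q hq => by
        rw [Subgroup.mem_subgroupOf, hsmul]
        exact ‹P₀.Normal›.conj_mem _ hq _)
      (hP₀.comap_subtype) hidx hC
  -- transport to `NK`
  let w : NK ≃* C :=
    { toFun := fun a => ⟨⟨((a : N) : G), a.2⟩, (a : N).2⟩
      invFun := fun c => ⟨⟨((c : K) : G), c.2⟩, (c : K).2⟩
      left_inv := fun a => rfl
      right_inv := fun c => rfl
      map_mul' := fun a b => rfl }
  have hew : e = C.subtype.comp w.toMonoidHom := MonoidHom.ext fun a => rfl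
  have hmultw : ∀ (θ : IrrCharacter K) (ξ : IrrCharacter C),
      CfsgLib.Glauberman.mult e θ (irrPull w ξ) = CfsgLib.Glauberman.mult C.subtype θ ξ :=
    fun θ ξ => by rw [hew]; exact NormalSylow.mult_comp_equiv C.subtype w θ ξ
  let InvK : IrrCharacter K → Prop := fun θ => ∀ (a : (P : Subgroup G)) k,
    (θ : K → ℂ) (a • k) = (θ : K → ℂ) k
  let InvN : IrrCharacter NK → Prop := fun β => ∀ (a : (P : Subgroup G)) (c c' : NK),
    ((c' : N) : G) = a * (c : N) * (a : G)⁻¹ → (β : NK → ℂ) c' = (β : NK → ℂ) c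
  let Cor : IrrCharacter K → IrrCharacter NK → Prop := fun θ β =>
    InvK θ ∧ InvN β ∧ ¬ p ∣ CfsgLib.Glauberman.mult e θ β
  have hback : ∀ β, InvN β → ∀ (a : (P : Subgroup G)) (c c' : C), (c' : K) = a • (c : K) →
      (irrPull w.symm β : C → ℂ) c' = (irrPull w.symm β : C → ℂ) c := fun β hβ a c c' h => by
    rw [irrPull_apply, irrPull_apply]
    exact hβ a _ _ (congrArg Subtype.val h)
  have hpp : ∀ β : IrrCharacter NK, irrPull w (irrPull w.symm β) = β := fun β =>
    Subtype.ext (funext fun a => by rw [irrPull_apply, irrPull_apply, w.symm_apply_apply])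
  have hc1 : ∀ θ, InvK θ → ∃ β, Cor θ β ∧
      ((charDegree (β : NK → ℂ) : ZMod p) = (charDegree (θ : K → ℂ) : ZMod p) ∨
        (charDegree (β : NK → ℂ) : ZMod p) = -(charDegree (θ : K → ℂ) : ZMod p)) ∧
      ∀ β', Cor θ β' → β' = β := by
    intro θ hθ
    obtain ⟨ξ, hξ, hm, hdeg, huniq⟩ := hcorr1 θ hθ
    have hd : charDegree (irrPull w ξ : NK → ℂ) = charDegree (ξ : C → ℂ) :=
      charDegree_eq_of_map_one (by rw [irrPull_apply, map_one, coe_charDegree])
    refine ⟨irrPull w ξ, ⟨hθ, fun a c c' h => ?_, ?_⟩, by rwa [hd], fun β' hβ' => ?_⟩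
    · rw [irrPull_apply, irrPull_apply]
      exact hξ a _ _ (Subtype.ext h)
    · rw [hmultw, ← (ZMod.natCast_eq_zero_iff _ p).not]
      rcases hm with h | h <;> simp [h]
    · by_contra hne
      refine hβ'.2.2 ?_
      rw [← hpp β', hmultw]
      refine huniq _ (hback β' hβ'.2.1) fun h => hne ?_
      rw [← hpp β', h]
  have hc2 : ∀ θ θ' β, Cor θ β → Cor θ' β → θ = θ' := by
    intro θ θ' β h h'
    refine hcorr2 θ θ' h.1 h'.1 (irrPull w.symm β) (hback β h.2.1) ?_ ?_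
    · rw [← hmultw, hpp]; exact h.2.2
    · rw [← hmultw, hpp]; exact h'.2.2
  have hc3 : ∀ β, InvN β → ∃ θ, Cor θ β := by
    intro β hβ
    obtain ⟨θ, hθ, hm⟩ := hcorr3 (irrPull w.symm β) (hback β hβ)
    exact ⟨θ, hθ, hβ, by rwa [← hmultw, hpp] at hm⟩
  -- symmetries
  have hstar : ∀ θ β, Cor θ β → Cor (starIrr θ) (starIrr β) := by
    rintro θ β ⟨h1, h2, h3⟩
    refine ⟨fun a k => congrArg conj (h1 a k), fun a c c' h => congrArg conj (h2 a c c' h), ?_⟩
    rwa [mult_eq_of_classInner_eq e (starIrr θ) (starIrr β) (m := CfsgLib.Glauberman.mult e θ β)]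
    have h := congrArg conj (classInner_eq_mult e θ β)
    rw [map_natCast] at h
    rw [← h]
    simp only [classInner, map_mul, map_sum, map_inv₀, map_natCast]
    rfl
  have hconj : ∀ (n : N) θ β, Cor θ β → Cor (conjIrr (n : G) θ) (conjIrr n β) := by
    rintro n θ β ⟨h1, h2, h3⟩
    refine ⟨fun a k => ?_, fun a c c' h => ?_, ?_⟩
    · simp only [conjIrr_coe, conjFun_apply]
      have hn' := (Subgroup.mem_normalizer_iff.1 (N.inv_mem n.2) (a : G)).1 a.2
      refine Eq.trans ?_ (h1 ⟨_, hn'⟩ _)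
      refine congrArg (θ : K → ℂ) (Subtype.ext ?_)
      simp [hsmul, mul_assoc]
    · simp only [conjIrr_coe, conjFun_apply]
      have hn' := (Subgroup.mem_normalizer_iff.1 (N.inv_mem n.2) (a : G)).1 a.2
      refine h2 ⟨_, hn'⟩ _ _ ?_
      simp [h, mul_assoc]
    · rwa [show conjIrr (n : G) θ = irrPull ((MulAut.conjNormal (n : G) : MulAut K)⁻¹) θ from rfl,
        show conjIrr n β = irrPull ((MulAut.conjNormal n : MulAut NK)⁻¹) β from rfl,
        mult_irrPull e _ _ (fun c => Subtype.ext rfl)]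
  have hcorReal : ∀ θ β, Cor θ β → ((∀ k, ((θ : K → ℂ) k).im = 0) ↔
      ∀ c, ((β : NK → ℂ) c).im = 0) := by
    intro θ β h
    rw [← starIrr_eq_iff, ← starIrr_eq_iff]
    constructor
    · intro hθ
      have h' := hstar θ β h
      rw [hθ] at h'
      obtain ⟨β₀, -, -, hu⟩ := hc1 θ h.1
      exact (hu _ h').trans (hu β h).symm
    · intro hβ
      have h' := hstar θ β h
      rw [hβ] at h'
      exact hc2 _ _ _ h' h
  have hcorInertia : ∀ θ β, Cor θ β →
      inertia NK (β : NK → ℂ) = (inertia K (θ : K → ℂ)).subgroupOf N := by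
    intro θ β h
    ext n
    rw [Subgroup.mem_subgroupOf, mem_inertia, mem_inertia, ← conjIrr_coe, ← conjIrr_coe,
      ← Subtype.ext_iff, ← Subtype.ext_iff]
    constructor
    · intro hn
      have h' := hconj n θ β h
      rw [hn] at h'
      exact hc2 _ _ _ h' h
    · intro hn
      have h' := hconj n θ β h
      rw [hn] at h'
      obtain ⟨β₀, -, -, hu⟩ := hc1 θ h.1
      exact (hu _ h').trans (hu β h).symm
  have hinvT : ∀ θ, InvK θ ↔ (P : Subgroup G) ≤ inertia K (θ : K → ℂ) := by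
    intro θ
    constructor
    · intro h u hu
      exact mem_inertia_iff_forall.2 fun k k' hk => by
        rw [show k' = (⟨u, hu⟩ : (P : Subgroup G)) • k from Subtype.ext hk]; exact h _ k
    · intro h a k
      exact mem_inertia_iff_forall.1 (h a.2) k _ (hsmul a k)
  -- the relation
  let R : IrrCharacter G → IrrCharacter N → Prop := fun χ ξ => ∃ θ β, Cor θ β ∧
    (∀ k, ((θ : K → ℂ) k).im = 0) ∧
    CfsgLib.Chars.Induced.mult (fun n : K => (χ : G → ℂ) n) θ ≠ 0 ∧
    CfsgLib.Chars.Induced.mult (fun n : NK => (ξ : N → ℂ) n) β ≠ 0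
  have hRdeg : ∀ (χ : IrrCharacter G) (ξ : IrrCharacter N), (∀ g, ((χ : G → ℂ) g).im = 0) → (∀ n, ((ξ : N → ℂ) n).im = 0) → R χ ξ →
      ((charDegree (ξ : N → ℂ) : ZMod p) = (charDegree (χ : G → ℂ) : ZMod p) ∨
        (charDegree (ξ : N → ℂ) : ZMod p) = -(charDegree (χ : G → ℂ) : ZMod p)) := by
    rintro χ ξ hχ hξ ⟨θ, β, hcor, hθr, h1, h2⟩
    rw [charDegree_real_above hodd θ hθr hχ h1,
      charDegree_real_above hoddN β ((hcorReal θ β hcor).1 hθr) hξ h2, hcorInertia θ β hcor]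
    have hmod : (((inertia K (θ : K → ℂ)).subgroupOf N).index : ZMod p) =
        ((inertia K (θ : K → ℂ)).index : ZMod p) :=
      ((ZMod.natCast_eq_natCast_iff _ _ p).2
        (index_modEq_relIndex_normalizer p P _ ((hinvT θ).1 hcor.1))).symm
    obtain ⟨β₀, hβ₀, hdeg, hu⟩ := hc1 θ hcor.1
    rw [← hu β hcor] at hdeg
    push_cast
    rw [hmod]
    rcases hdeg with h | h <;> rw [h]
    · exact Or.inl rfl
    · exact Or.inr (mul_neg _ _)
  have htotal : ∀ χ : IrrCharacter G, (∀ g, ((χ : G → ℂ) g).im = 0) →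
      ∃ ξ : IrrCharacter N, (∀ n, ((ξ : N → ℂ) n).im = 0) ∧ R χ ξ := by
    intro χ hχ
    obtain ⟨θ, hθr, hθ⟩ := exists_real_below hodd χ hχ
    obtain ⟨Q, hQ⟩ := exists_sylow_le p _ (not_dvd_index_inertia p K hodd hreal θ hθr)
    obtain ⟨c, hc⟩ := MulAction.exists_smul_eq G Q P
    have hinv : InvK (conjIrr c θ) := by
      rw [hinvT]
      intro u hu
      rw [← hc, Sylow.coe_subgroup_smul] at hu
      obtain ⟨v, hv, rfl⟩ := hu
      rw [mem_inertia]
      show conjFun K (c * v * c⁻¹) (conjFun K c (θ : K → ℂ)) = conjFun K c (θ : K → ℂ)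
      rw [← conjFun_mul, inv_mul_cancel_right, conjFun_mul, mem_inertia.1 (hQ hv)]
    obtain ⟨β, hβ, -, -⟩ := hc1 _ hinv
    obtain ⟨ξ, hξ, hξβ⟩ := exists_real_above NK hoddN β
      ((hcorReal _ β hβ).1 (real_conjIrr c hθr))
    exact ⟨ξ, hξ, _, β, hβ, real_conjIrr c hθr,
      by rwa [mult_restrict_conjIrr (isClassFunction_coe χ)], hξβ⟩
  have hfun : ∀ (χ : IrrCharacter G) (ξ ξ' : IrrCharacter N), (∀ g, ((χ : G → ℂ) g).im = 0) → (∀ n, ((ξ : N → ℂ) n).im = 0) →
      (∀ n, ((ξ' : N → ℂ) n).im = 0) → R χ ξ → R χ ξ' → ξ = ξ' := by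
    rintro χ ξ ξ' hχ hξ hξ' ⟨θ, β, hcor, hθr, h1, h2⟩ ⟨θ', β', hcor', hθr', h1', h2'⟩
    obtain ⟨g, rfl⟩ := mem_conjOrbit_of_mult_ne_zero χ θ θ' h1 h1'
    -- move by an element of the normalizer
    set T := inertia K (θ : K → ℂ) with hT
    have hPT : (P : Subgroup G) ≤ T := (hinvT θ).1 hcor.1
    have hle' : ((g⁻¹ • P : Sylow p G) : Subgroup G) ≤ T := by
      rw [Sylow.coe_subgroup_smul]
      rintro _ ⟨u, hu, rfl⟩
      have h := (hinvT (conjIrr g θ)).1 hcor'.1 hu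
      rw [mem_inertia] at h
      rw [hT, mem_inertia]
      have h' := congrArg (conjFun K g⁻¹) h
      simp only [conjIrr_coe, ← conjFun_mul] at h'
      simpa [mul_assoc, conjFun_one] using h'
    obtain ⟨t, ht⟩ := MulAction.exists_smul_eq T (P.subtype hPT) ((g⁻¹ • P).subtype hle')
    rw [Sylow.smul_subtype] at ht
    have ht' := Sylow.subtype_injective ht
    have hn : g * t ∈ N := by
      refine Sylow.smul_eq_iff_mem_normalizer.1 ?_
      rw [Subgroup.smul_def] at ht'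
      rw [mul_smul, ht', smul_inv_smul]
    have hθeq : conjIrr ((⟨g * t, hn⟩ : N) : G) θ = conjIrr g θ := by
      apply Subtype.ext
      show conjFun K (g * t) (θ : K → ℂ) = conjFun K g (θ : K → ℂ)
      rw [conjFun_mul, mem_inertia.1 t.2]
    have hc' := hconj ⟨g * t, hn⟩ θ β hcor
    rw [hθeq] at hc'
    obtain ⟨β₀, -, -, hu⟩ := hc1 _ hcor'.1
    rw [hu β' hcor', ← hu _ hc', mult_restrict_conjIrr (isClassFunction_coe ξ')] at h2'
    exact real_above_unique hoddN β ((hcorReal θ β hcor).1 hθr) hξ hξ' h2 h2'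
  have hinj : ∀ (χ χ' : IrrCharacter G) (ξ : IrrCharacter N), (∀ g, ((χ : G → ℂ) g).im = 0) → (∀ g, ((χ' : G → ℂ) g).im = 0) →
      (∀ n, ((ξ : N → ℂ) n).im = 0) → R χ ξ → R χ' ξ → χ = χ' := by
    rintro χ χ' ξ hχ hχ' hξ ⟨θ, β, hcor, hθr, h1, h2⟩ ⟨θ', β', hcor', hθr', h1', h2'⟩
    obtain ⟨n, rfl⟩ := mem_conjOrbit_of_mult_ne_zero ξ β β' h2 h2'
    rw [← hc2 _ _ _ (hconj n θ β hcor) hcor', mult_restrict_conjIrr (isClassFunction_coe χ')]
      at h1'
    exact real_above_unique hodd θ hθr hχ hχ' h1 h1'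
  have hnd : ∀ (χ : IrrCharacter G) (ξ : IrrCharacter N), (∀ g, ((χ : G → ℂ) g).im = 0) → (∀ n, ((ξ : N → ℂ) n).im = 0) → R χ ξ →
      ¬ p ∣ charDegree (ξ : N → ℂ) := by
    intro χ ξ hχ hξ hR hd
    rw [← (ZMod.natCast_eq_zero_iff _ p)] at hd
    refine hreal χ hχ (((ZMod.natCast_eq_zero_iff _ p)).1 ?_)
    rcases hRdeg χ ξ hχ hξ hR with h | h
    · rw [← h, hd]
    · rw [eq_neg_iff_add_eq_zero, hd, zero_add] at h; exact h
  let f : {χ : IrrCharacter G // ∀ g : G, ((χ : G → ℂ) g).im = 0} →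
      {ξ : IrrCharacter N // (∀ n, ((ξ : N → ℂ) n).im = 0) ∧ ¬ p ∣ charDegree (ξ : N → ℂ)} :=
    fun χ => ⟨Classical.choose (htotal χ.1 χ.2), (Classical.choose_spec (htotal χ.1 χ.2)).1,
      hnd χ.1 _ χ.2 (Classical.choose_spec (htotal χ.1 χ.2)).1
        (Classical.choose_spec (htotal χ.1 χ.2)).2⟩
  have hf : ∀ χ, R χ.1 (f χ).1 := fun χ => (Classical.choose_spec (htotal χ.1 χ.2)).2
  refine ⟨f, ⟨fun χ χ' h => Subtype.ext (hinj _ _ _ χ.2 χ'.2 (f χ).2.1 (hf χ)
    (h ▸ hf χ')), fun ξ => ?_⟩, fun χ => hRdeg _ _ χ.2 (f χ).2.1 (hf χ)⟩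
  obtain ⟨β, hβr, hβ⟩ := exists_real_below hoddN ξ.1 ξ.2.1
  have hdeg := charDegree_real_above hoddN β hβr ξ.2.1 hβ
  have hidxN : ¬ p ∣ (inertia NK (β : NK → ℂ)).index := fun h =>
    ξ.2.2 (hdeg ▸ h.mul_right _)
  obtain ⟨Q, hQ⟩ := exists_sylow_le p _ hidxN
  have hPN : (P : Subgroup G) ≤ N := Subgroup.le_normalizer
  haveI : ((P.subtype hPN : Sylow p N) : Subgroup N).Normal := by
    rw [Sylow.coe_subtype]
    exact Subgroup.normal_in_normalizer
  haveI := Sylow.unique_of_normal (P.subtype hPN) inferInstance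
  rw [Subsingleton.elim Q (P.subtype hPN)] at hQ
  have hβinv : InvN β := fun a c c' h =>
    mem_inertia_iff_forall.1 (hQ (x := ⟨(a : G), hPN a.2⟩) a.2) c c' (Subtype.ext h)
  obtain ⟨θ, hθ⟩ := hc3 β hβinv
  obtain ⟨χ, hχ, hχθ⟩ := exists_real_above K hodd θ ((hcorReal θ β hθ).2 hβr)
  refine ⟨⟨χ, hχ⟩, Subtype.ext ?_⟩
  exact hfun χ _ _ hχ (f ⟨χ, hχ⟩).2.1 ξ.2.1 (hf ⟨χ, hχ⟩)
    ⟨θ, β, hθ, (hcorReal θ β hθ).2 hβr, hχθ, hβ⟩

end CfsgLib.RealDegree
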