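import Cfsg.Agent.RealDegree.BadOrbits
import Cfsg.Agent.RealDegree.NormalSylow
import Cfsg.Agent.Glauberman.Sub
import Cfsg.Agent.Glauberman.Corr
import Cfsg.Agent.Chars.Basic
import Cfsg.Agent.Chars.Induced.Clifford

/-!
# Real classes and real characters of degree prime to `p`

For a normal `p'`-subgroup of odd index: if every real irreducible character of the group has degree
prime to `p`, then every real element meets the centraliser of some Sylow `p`-subgroup.
-/

set_option autoImplicit false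
open Cfsg MulAction CfsgLib.Chars CfsgLib.Chars.Induced
open scoped ComplexConjugate

namespace CfsgLib.RealDegree

/-- If a square and an odd power lie in a subgroup, so does the element. -/
theorem mem_of_sq_of_odd_pow {Γ : Type*} [Group Γ] (H : Subgroup Γ) {g : Γ} {m : ℕ} (hm : Odd m)
    (h₂ : g * g ∈ H) (hgm : g ^ m ∈ H) : g ∈ H := by
  obtain ⟨j, rfl⟩ := hm
  rw [pow_succ, two_mul, pow_add, ← (Commute.refl g).mul_pow] at hgm
  exact (H.mul_mem_cancel_left (H.pow_mem h₂ j)).1 hgm

universe u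

variable {Γ : Type u} [Group Γ] [Finite Γ]

/-- A real element lies in every normal subgroup of odd index. -/
theorem mem_of_real (K : Subgroup Γ) [K.Normal] (hodd : Odd K.index) {x : Γ}
    (hx : IsConj x x⁻¹) : x ∈ K := by
  obtain ⟨g, hg⟩ := isConj_iff.1 hx
  have hpow : ∀ a : Γ, a ^ K.index ∈ K := fun a => K.pow_index_mem a
  have hgg : g * g * x * (g * g)⁻¹ = x := by
    calc g * g * x * (g * g)⁻¹ = g * (g * x * g⁻¹) * g⁻¹ := by group
      _ = (g * x * g⁻¹)⁻¹ := by rw [hg]; conv_rhs => rw [← hg]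
                                group
      _ = x := by rw [hg, inv_inv]
  let C : Subgroup Γ :=
    (Subgroup.centralizer {(QuotientGroup.mk' K x)}).comap (QuotientGroup.mk' K)
  have hgC : g ∈ C := by
    refine mem_of_sq_of_odd_pow C hodd ?_ ?_
    · rw [Subgroup.mem_comap, Subgroup.mem_centralizer_singleton_iff]
      have h := congrArg (QuotientGroup.mk' K) (mul_inv_eq_iff_eq_mul.1 hgg)
      simpa only [map_mul] using h
    · rw [Subgroup.mem_comap, (show QuotientGroup.mk' K (g ^ K.index) = 1 from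
        (QuotientGroup.eq_one_iff (g ^ K.index)).2 (hpow g))]
      exact Subgroup.one_mem _
  rw [Subgroup.mem_comap, Subgroup.mem_centralizer_singleton_iff] at hgC
  have h2 : (QuotientGroup.mk' K x) * QuotientGroup.mk' K x = 1 := by
    have h3 := congrArg (QuotientGroup.mk' K) hg
    rw [map_mul, map_mul, map_inv, map_inv, hgC, mul_inv_cancel_right] at h3
    exact mul_eq_one_iff_eq_inv.2 h3
  refine mem_of_sq_of_odd_pow K hodd ?_ (hpow x)
  rw [← QuotientGroup.eq_one_iff]
  exact h2

/-- A subgroup of index prime to `p` contains a Sylow `p`-subgroup. -/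
theorem exists_sylow_le (p : ℕ) [Fact p.Prime] (T : Subgroup Γ) (hT : ¬ p ∣ T.index) :
    ∃ P : Sylow p Γ, (P : Subgroup Γ) ≤ T := by
  obtain ⟨Q⟩ : Nonempty (Sylow p T) := inferInstance
  have hidx : ¬ p ∣ ((Q : Subgroup T).map T.subtype).index := by
    rw [Subgroup.index_map_subtype, (Fact.out : p.Prime).dvd_mul]
    exact fun h => h.elim Q.not_dvd_index hT
  exact ⟨(Q.isPGroup'.map T.subtype).toSylow hidx, Subgroup.map_subtype_le _⟩

/-- The real conjugate of an irreducible character. -/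
noncomputable def starIrr {H : Type u} [Group H] [Finite H] (χ : IrrCharacter H) :
    IrrCharacter H :=
  ⟨_, isIrrCharacter_ringHom χ.2 (starRingEnd ℂ)⟩

theorem starIrr_apply {H : Type u} [Group H] [Finite H] (χ : IrrCharacter H) (h : H) :
    (starIrr χ : H → ℂ) h = (χ : H → ℂ) h⁻¹ :=
  (map_inv_eq_conj (isCharacter_coe χ) h).symm

variable (p : ℕ) [Fact p.Prime]

omit [Fact p.Prime] in
/-- A real character of a normal subgroup of odd index lies below a real character. -/
theorem exists_real_above [Fintype Γ] (K : Subgroup Γ) [K.Normal] [Fintype K] (hodd : Odd K.index)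
    (θ : IrrCharacter K) (hθ : ∀ k, ((θ : K → ℂ) k).im = 0) :
    ∃ χ : IrrCharacter Γ, (∀ g, ((χ : Γ → ℂ) g).im = 0) ∧
      CfsgLib.Chars.Induced.mult (fun n : K => (χ : Γ → ℂ) n) θ ≠ 0 := by
  classical
  have hΨ := CfsgLib.Chars.Induced.isCharacter_indFun K (isCharacter_coe θ)
  have hΨreal : ∀ g, conj (indFun K (θ : K → ℂ) g) = indFun K (θ : K → ℂ) g := fun g => by
    rw [conj_indFun]
    congr 1
    funext k
    exact Complex.conj_eq_iff_im.2 (hθ k)
  obtain ⟨χ, hχreal, hχ⟩ := exists_real_constituent hΨ hΨreal (t := charDegree (θ : K → ℂ))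
    (d := K.index) (by
      rw [indFun_one_apply, Nat.cast_mul, coe_charDegree]
      ring)
    hodd (fun χ hχ => by
      rw [mult_indFun_irr] at hχ
      have h := clifford_one χ θ hχ
      rw [← coe_charDegree χ, ← coe_charDegree θ, ← Nat.cast_mul, ← Nat.cast_mul] at h
      exact Dvd.intro_left _ (Nat.cast_injective h).symm)
    (fun h => map_one_ne_zero θ (by rw [← coe_charDegree, h, Nat.cast_zero]))
  rw [mult_indFun_irr] at hχ
  exact ⟨χ, hχreal, hχ⟩

/-- The inertia group of a real character has index prime to `p`. -/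
theorem not_dvd_index_inertia [Fintype Γ] (K : Subgroup Γ) [K.Normal] [Fintype K]
    (hodd : Odd K.index)
    (hreal : ∀ χ : IrrCharacter Γ, (∀ g, ((χ : Γ → ℂ) g).im = 0) →
      ¬ p ∣ charDegree (χ : Γ → ℂ))
    (θ : IrrCharacter K) (hθ : ∀ k, ((θ : K → ℂ) k).im = 0) :
    ¬ p ∣ (inertia K (θ : K → ℂ)).index := by
  intro hdvd
  obtain ⟨χ, hχreal, hχ⟩ := exists_real_above K hodd θ hθ
  have h := clifford_one χ θ hχ
  rw [← coe_charDegree χ, ← coe_charDegree θ, ← Nat.cast_mul, ← Nat.cast_mul] at h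
  refine hreal χ hχreal ?_
  rw [Nat.cast_injective h]
  exact (hdvd.mul_left _).mul_right _

open CfsgLib.Glauberman in
set_option maxHeartbeats 1000000 in
/-- **Real elements meet centralisers of Sylow subgroups.** -/
theorem exists_conj_centralizes (K : Subgroup Γ) [K.Normal] (hK : ¬ p ∣ Nat.card K)
    (hodd : Odd K.index)
    (hreal : ∀ χ : IrrCharacter Γ, (∀ g, ((χ : Γ → ℂ) g).im = 0) →
      ¬ p ∣ charDegree (χ : Γ → ℂ))
    {x : Γ} (hx : IsConj x x⁻¹) :
    ∃ (P : Sylow p Γ) (y : Γ), IsConj x y ∧ ∀ u ∈ (P : Subgroup Γ), u * y * u⁻¹ = y := by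
  classical
  haveI := Fintype.ofFinite Γ
  haveI := Fintype.ofFinite K
  letI : MulDistribMulAction Γ K :=
    MulDistribMulAction.compHom K (MulAut.conjNormal : Γ →* MulAut K)
  have hsmul : ∀ (g : Γ) (a : K), ((g • a : K) : Γ) = g * a * g⁻¹ := fun g a => rfl
  letI : MulAction Γ (ConjClasses K) := classAction Γ
  letI : MulAction Γ (IrrCharacter K) := irrAction Γ
  have hinvK : ∀ a b : K, IsConj a b → IsConj a⁻¹ b⁻¹ := fun a b h => by
    obtain ⟨c, rfl⟩ := isConj_iff.1 h
    exact isConj_iff.2 ⟨c, by group⟩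
  let τ : ConjClasses K → ConjClasses K :=
    Quotient.map (fun a : K => a⁻¹) hinvK
  have hτmk : ∀ a : K, τ (ConjClasses.mk a) = ConjClasses.mk a⁻¹ := fun a => rfl
  have hne : (Nat.card K : ResField p) ≠ 0 := by
    rwa [Ne, CharP.cast_eq_zero_iff _ p]
  let A : IrrCharacter K → ConjClasses K → ResField p := fun θ c => chk p θ c.out
  let B : ConjClasses K → IrrCharacter K → ResField p := fun c θ =>
    ((Finset.univ.filter fun a : K => ConjClasses.mk a = c).card : ResField p) *
      (Nat.card K : ResField p)⁻¹ * chk p θ c.out⁻¹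
  have hout : ∀ a : K, IsConj (ConjClasses.mk a).out a := fun a =>
    ConjClasses.mk_eq_mk_iff_isConj.1 (Quotient.out_eq (ConjClasses.mk a))
  have hchk : ∀ (θ θ' : IrrCharacter K) (a b : K),
      (θ : K → ℂ) a = (θ' : K → ℂ) b → chk p θ a = chk p θ' b := fun θ θ' a b h =>
    mk_eq_of_coe_eq p h
  have hcl : ∀ (θ : IrrCharacter K) (a b : K), IsConj a b → (θ : K → ℂ) a = (θ : K → ℂ) b := by
    intro θ a b h
    obtain ⟨c, rfl⟩ := isConj_iff.1 h
    exact (isClassFunction_coe θ a c).symm
  have hactA : ∀ (g : Γ) (θ : IrrCharacter K) (a : K),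
      ((g • θ : IrrCharacter K) : K → ℂ) (g • a) = (θ : K → ℂ) a := fun g θ a => by
    rw [irrAction_apply, inv_smul_smul]
  have hA : ∀ (g : Γ) θ c, A (g • θ) (g • c) = A θ c := by
    intro g θ c
    obtain ⟨a, rfl⟩ := ConjClasses.mk_surjective c
    refine hchk _ _ _ _ ?_
    rw [classAction_mk, hcl _ _ _ (hout _), hcl _ _ _ (hout _), hactA]
  have hcard : ∀ (g : Γ) (c : ConjClasses K),
      (Finset.univ.filter fun a : K => ConjClasses.mk a = g • c).card =
        (Finset.univ.filter fun a : K => ConjClasses.mk a = c).card := by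
    intro g c
    refine (Finset.card_bij' (fun a _ => g • a) (fun a _ => g⁻¹ • a) ?_ ?_ ?_ ?_).symm <;>
      intro a ha <;> simp_all [← classAction_mk]
  have hB : ∀ (g : Γ) c θ, B (g • c) (g • θ) = B c θ := by
    intro g c θ
    simp only [B, hcard]
    congr 1
    obtain ⟨a, rfl⟩ := ConjClasses.mk_surjective c
    refine hchk _ _ _ _ ?_
    rw [classAction_mk, hcl _ _ _ (hinvK _ _ (hout _)), hcl _ _ _ (hinvK _ _ (hout _)),
      ← smul_inv', hactA]
  have hAmk : ∀ (θ : IrrCharacter K) (a : K), A θ (ConjClasses.mk a) = chk p θ a := fun θ a =>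
    hchk _ _ _ _ (hcl _ _ _ (hout a))
  have h₁ : ∀ θ θ', ∑ c, A θ c * B c θ' = if θ = θ' then 1 else 0 := by
    intro θ θ'
    have horth := (charTableRel_chk (G := K) p).orth θ θ'
    rw [← Finset.sum_fiberwise (Finset.univ : Finset K) ConjClasses.mk] at horth
    have e : ∀ c, A θ c * B c θ' = (Nat.card K : ResField p)⁻¹ *
        ∑ a ∈ Finset.univ.filter (fun a : K => ConjClasses.mk a = c),
          chk p θ a * chk p θ' a⁻¹ := by
      intro c
      rw [Finset.sum_congr rfl (g := fun _ => chk p θ c.out * chk p θ' c.out⁻¹) fun a ha => by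
        have hc : ConjClasses.mk a = c := (Finset.mem_filter.1 ha).2
        subst hc
        rw [hchk θ θ _ _ (hcl _ _ _ (hout a)).symm,
          hchk θ' θ' _ _ (hcl _ _ _ (hinvK _ _ (hout a))).symm]]
      rw [Finset.sum_const, nsmul_eq_mul]
      simp only [A, B]
      ring
    rw [Finset.sum_congr rfl fun c _ => e c, ← Finset.mul_sum, horth, Nat.card_eq_fintype_card]
    split_ifs
    · rw [← Nat.card_eq_fintype_card]
      exact inv_mul_cancel₀ hne
    · exact mul_zero _
  have h₂ : ∀ c c', ∑ θ, B c θ * A θ c' = if c = c' then 1 else 0 := by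
    have hc : Fintype.card (ConjClasses K) = Fintype.card (IrrCharacter K) := by
      rw [← Nat.card_eq_fintype_card, ← Nat.card_eq_fintype_card, card_irrCharacter]
    have hm : (Matrix.of A) * (Matrix.of B) = 1 := by
      ext θ θ'
      rw [Matrix.mul_apply, Matrix.one_apply]
      exact h₁ θ θ'
    have hm' := (Matrix.mul_eq_one_comm_of_equiv (Fintype.equivOfCardEq hc.symm)).1 hm
    intro c c'
    have := congrFun (congrFun hm' c) c'
    rwa [Matrix.mul_apply, Matrix.one_apply] at this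
  have hσ : Function.Involutive (starIrr : IrrCharacter K → IrrCharacter K) := fun θ =>
    Subtype.ext (funext fun a => by rw [starIrr_apply, starIrr_apply, inv_inv])
  have hτ : Function.Involutive τ := fun c => by
    obtain ⟨a, rfl⟩ := ConjClasses.mk_surjective c
    rw [hτmk, hτmk, inv_inv]
  have hσG : ∀ (g : Γ) (θ : IrrCharacter K), starIrr (g • θ) = g • starIrr θ := fun g θ =>
    Subtype.ext (funext fun a => by
      rw [starIrr_apply, irrAction_apply, irrAction_apply, starIrr_apply, smul_inv'])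
  have hτG : ∀ (g : Γ) c, τ (g • c) = g • τ c := fun g c => by
    obtain ⟨a, rfl⟩ := ConjClasses.mk_surjective c
    rw [classAction_mk, hτmk, hτmk, classAction_mk, smul_inv']
  have hAσ : ∀ θ c, A (starIrr θ) (τ c) = A θ c := by
    intro θ c
    obtain ⟨a, rfl⟩ := ConjClasses.mk_surjective c
    rw [hτmk, hAmk, hAmk]
    exact hchk _ _ _ _ (by rw [starIrr_apply, inv_inv])
  have hBσ : ∀ c θ, B (τ c) (starIrr θ) = B c θ := by
    intro c θ
    have hn : (Finset.univ.filter fun a : K => ConjClasses.mk a = τ c).card =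
        (Finset.univ.filter fun a : K => ConjClasses.mk a = c).card := by
      refine Finset.card_bij' (fun a _ => a⁻¹) (fun a _ => a⁻¹) ?_ ?_ ?_ ?_ <;>
        intro a ha <;> simp_all [← hτmk, hτ c]
    simp only [B, hn]
    congr 1
    obtain ⟨a, rfl⟩ := ConjClasses.mk_surjective c
    refine hchk _ _ _ _ ?_
    rw [hτmk, starIrr_apply, inv_inv, hcl _ _ _ (hout _), hcl _ _ _ (hinvK _ _ (hout _))]
  have hpow : ∀ g : Γ, g ^ K.index ∈ K := fun g => K.pow_index_mem g
  -- on the character side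
  have hX : ∀ θ : IrrCharacter K, starIrr θ ∈ orbit Γ θ → SylowFixed p Γ θ := by
    rintro θ ⟨g, hg⟩
    change g • θ = starIrr θ at hg
    have hgθ : g ∈ stabilizer Γ θ := by
      refine mem_of_sq_of_odd_pow _ hodd ?_ ?_
      · rw [mem_stabilizer_iff, mul_smul, hg, ← hσG, hg, hσ]
      · rw [mem_stabilizer_iff]
        refine Subtype.ext (funext fun a => ?_)
        rw [irrAction_apply]
        refine hcl θ _ _ (isConj_iff.2 ⟨⟨g ^ K.index, hpow g⟩, Subtype.ext ?_⟩)
        simp only [Subgroup.coe_mul, InvMemClass.coe_inv, hsmul]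
        group
    rw [mem_stabilizer_iff, hg] at hgθ
    have hθreal : ∀ a, ((θ : K → ℂ) a).im = 0 := fun a => by
      rw [← Complex.conj_eq_iff_im]
      exact congrFun (congrArg Subtype.val hgθ) a
    obtain ⟨P, hP⟩ := exists_sylow_le p _ (not_dvd_index_inertia p K hodd hreal θ hθreal)
    refine ⟨P, fun u hu => mem_stabilizer_iff.2 (Subtype.ext ?_)⟩
    exact mem_inertia.1 (hP hu)
  -- on the class side
  have hxK := mem_of_real K hodd hx
  obtain ⟨g, hg⟩ := isConj_iff.1 hx
  set a : K := ⟨x, hxK⟩ with ha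
  obtain ⟨P, hP⟩ := sylowFixed_of_invertible A B hA hB h₁ h₂ hσ hτ hσG hτG hAσ hBσ hX
    (ConjClasses.mk a) ⟨g, by
      show g • ConjClasses.mk a = τ (ConjClasses.mk a)
      rw [classAction_mk, hτmk]
      exact congrArg _ (Subtype.ext hg)⟩
  obtain ⟨Kc, hKc⟩ := (toFixedClass_bijective (A := (P : Subgroup Γ)) (G := K) P.isPGroup' hK).2
    ⟨ConjClasses.mk a, fun u b hb => by
      show ConjClasses.mk ((u : Γ) • b) = _
      rw [← classAction_mk, hb]
      exact mem_stabilizer_iff.1 (hP u.2)⟩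
  obtain ⟨y, rfl⟩ := ConjClasses.mk_surjective Kc
  have hy : IsConj a (y : K) := (ConjClasses.mk_eq_mk_iff_isConj.1 (congrArg Subtype.val hKc)).symm
  refine ⟨P, ((y : K) : Γ), K.subtype.map_isConj hy, fun u hu => ?_⟩
  exact congrArg Subtype.val (y.2 ⟨u, hu⟩)

/-- The same, relative to a normal `p`-subgroup, for a given Sylow subgroup. -/
theorem exists_conj_mem_normalizer {G : Type u} [Group G] [Finite G] (P₀ K : Subgroup G)
    [P₀.Normal] [K.Normal] (hP₀ : IsPGroup p P₀) (hle : P₀ ≤ K) (hidx : ¬ p ∣ P₀.relIndex K)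
    (hodd : Odd K.index)
    (hreal : ∀ χ : IrrCharacter G, (∀ g, ((χ : G → ℂ) g).im = 0) → ¬ p ∣ charDegree (χ : G → ℂ))
    (P : Sylow p G) {x : G} (hx : IsConj x x⁻¹) :
    ∃ y ∈ Subgroup.normalizer ((P : Subgroup G) : Set G), IsConj x y := by
  set f := QuotientGroup.mk' P₀ with hf
  have hsurj : Function.Surjective f := QuotientGroup.mk'_surjective P₀
  haveI : (K.map f).Normal := Subgroup.Normal.map inferInstance f hsurj
  have hker : f.ker = P₀ := QuotientGroup.ker_mk' P₀
  obtain ⟨Q, y, hxy, hy⟩ := exists_conj_centralizes p (K.map f)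
    (by
      have h1 : Nat.card (K.map f) * (K.map f).index = Nat.card (G ⧸ P₀) :=
        Subgroup.card_mul_index _
      rw [Subgroup.index_map_eq _ hsurj (by rw [hker]; exact hle), ← Subgroup.index_eq_card,
        ← Subgroup.relIndex_mul_index hle] at h1
      rwa [Nat.eq_of_mul_eq_mul_right (Nat.pos_of_ne_zero Subgroup.index_ne_zero_of_finite) h1])
    (by rwa [Subgroup.index_map_eq _ hsurj (by rw [hker]; exact hle)])
    (fun χ hχ => by
      have h := hreal ⟨_, isIrrCharacter_comp χ.2 f hsurj⟩ (fun g => hχ (f g))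
      rwa [charDegree_eq_of_map_one (χ := fun g => (χ : G ⧸ P₀ → ℂ) (f g))
        (n := charDegree (χ : G ⧸ P₀ → ℂ)) (by show (χ : G ⧸ P₀ → ℂ) (f 1) = _
                                               rw [coe_charDegree χ, map_one])] at h)
    (x := f x) (by
      obtain ⟨c, hc⟩ := isConj_iff.1 hx
      exact isConj_iff.2 ⟨f c, by rw [← map_inv, ← map_inv, ← map_mul, ← map_mul, hc]⟩)
  let R : Subgroup G := (Q : Subgroup _).comap f
  have hR : IsPGroup p R := Q.isPGroup'.comap_of_ker_isPGroup f (by rw [hker]; exact hP₀)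
  have hRi : ¬ p ∣ R.index := by
    rw [Subgroup.index_comap_of_surjective _ hsurj]
    exact Q.not_dvd_index
  obtain ⟨c, hc⟩ := MulAction.exists_smul_eq G (hR.toSylow hRi) P
  obtain ⟨d, hd⟩ := isConj_iff.1 hxy
  obtain ⟨d, rfl⟩ := hsurj d
  set z := d * x * d⁻¹ with hzdef
  have hz : z ∈ Subgroup.normalizer (R : Set G) := by
    have hzf : f z = y := by rw [hzdef, map_mul, map_mul, map_inv, hd]
    rw [Subgroup.mem_normalizer_iff]
    intro u
    constructor
    · intro hu
      rw [Subgroup.mem_comap, map_mul, map_mul, map_inv, hzf]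
      have h := hy _ (Subgroup.mem_comap.1 hu)
      have h' : f u * y = y * f u := mul_inv_eq_iff_eq_mul.1 h
      rw [← h', mul_inv_cancel_right]
      exact Subgroup.mem_comap.1 hu
    · intro hu
      rw [Subgroup.mem_comap, map_mul, map_mul, map_inv, hzf] at hu
      rw [Subgroup.mem_comap]
      have h := hy _ hu
      have h' : f u = y * f u * y⁻¹ := by
        have h2 : y * f u * y⁻¹ * y = y * (y * f u * y⁻¹) := mul_inv_eq_iff_eq_mul.1 h
        rw [inv_mul_cancel_right] at h2
        exact mul_left_cancel h2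
      rwa [h']
  refine ⟨c * z * c⁻¹, ?_, isConj_iff.2 ⟨c * d, by rw [hzdef]; group⟩⟩
  rw [← hc, Sylow.coe_subgroup_smul, Subgroup.mem_normalizer_iff]
  intro u
  rw [Subgroup.mem_pointwise_smul_iff_inv_smul_mem, Subgroup.mem_pointwise_smul_iff_inv_smul_mem]
  have e : (MulAut.conj c)⁻¹ • (c * z * c⁻¹ * u * (c * z * c⁻¹)⁻¹) =
      z * ((MulAut.conj c)⁻¹ • u) * z⁻¹ := by
    simp only [MulAut.smul_def, MulAut.conj_inv_apply]
    group
  rw [e]
  exact Subgroup.mem_normalizer_iff.1 hz _

/-- The subgroup generated by the `2`-elements has a normal Sylow `p`-subgroup and odd index. -/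
theorem exists_sylow_of_odd_residual {G : Type u} [Group G] [Finite G]
    (hsolv : Group.IsSolvable (primeClosure p G))
    (hreal : ∀ χ : IrrCharacter G, (∀ g, ((χ : G → ℂ) g).im = 0) → ¬ p ∣ charDegree (χ : G → ℂ)) :
    ∃ P₀ : Subgroup G, P₀.Normal ∧ P₀ ≤ primeClosure 2 G ∧ IsPGroup p P₀ ∧
      ¬ p ∣ P₀.relIndex (primeClosure 2 G) ∧ Odd (primeClosure 2 G).index := by
  haveI : Fact (Nat.Prime 2) := ⟨Nat.prime_two⟩
  obtain ⟨P₀, h1, h2, h3, h4⟩ := exists_normal_sylow p _ G rfl hsolv hreal (primeClosure 2 G)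
    inferInstance le_rfl ⟨0, by rw [Subgroup.relIndex_self, pow_zero]⟩
  refine ⟨P₀, h1, h2, h3, h4, ?_⟩
  obtain ⟨S⟩ : Nonempty (Sylow 2 G) := inferInstance
  have hS : (S : Subgroup G) ≤ primeClosure 2 G := fun s hs => mem_primeClosure (by
    obtain ⟨k, hk⟩ := IsPGroup.iff_orderOf.1 S.isPGroup' ⟨s, hs⟩
    exact ⟨k, by rwa [Subgroup.orderOf_mk] at hk⟩)
  rw [← Nat.not_even_iff_odd, even_iff_two_dvd]
  exact fun h => S.not_dvd_index (h.trans (Subgroup.index_dvd_of_le hS))

end CfsgLib.RealDegree
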